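import Cfsg.Agent.SixStep.Series
import Cfsg.Agent.Chev.Inst
import Cfsg.Agent.Chev.GeoCert
import Cfsg.Agent.Chev.SimpleCert

/-!
# The certificate of the branch node of `E8`
-/

set_option autoImplicit false
set_option maxRecDepth 20000

namespace CfsgLib.SixStep.CertE8

open Cfsg.Lie CfsgLib.Chev

/-- The tables. -/
noncomputable abbrev T : Tbl := DataE8.tbl

/-- The coefficient of the omitted fundamental root. -/
noncomputable def v (r : ℕ) : ℤ := T.vecAt r 3

def reachCert : List (ℕ × ℕ × ℕ) :=
  [(131,113,130), (132,116,131), (133,118,132), (134,119,133), (136,104,130), (137,104,131), (138,104,132), (139,104,133), (140,104,134), (142,98,130), (143,98,131), (144,98,132), (145,98,133), (146,98,134), (147,98,136), (148,98,137), (149,98,138), (150,98,139), (151,98,140), (164,77,136), (165,77,137), (166,77,138), (167,77,139), (168,77,140), (169,77,147), (170,77,148), (171,77,149), (172,77,150), (173,77,151), (156,113,153), (157,113,154), (158,113,155), (159,116,157), (160,116,158), (161,118,160), (178,77,156), (179,77,157), (180,77,158), (181,77,159), (182,77,160),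 (183,77,161), (184,104,174), (185,104,175), (186,104,176), (187,104,177), (188,104,178), (189,104,179), (190,104,180), (191,104,181), (192,104,182), (193,104,183), (200,113,197), (201,113,198), (202,113,199), (203,116,202), (204,98,194), (205,98,195), (206,98,196), (207,98,197), (208,98,198), (209,98,199), (210,98,200), (211,98,201), (212,98,202), (213,98,203), (218,113,217), (219,104,214), (220,104,215), (221,104,216), (222,104,217), (223,104,218), (226,77,219), (227,77,220), (228,77,221), (229,77,222), (230,77,223), (225,98,224), (232,104,231), (233,77,225), (234,98,232), (236,113,235), (237,116,236), (238,118,237), (239,119,238)]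

def genCert : List (ℕ × ℕ × ℕ) :=
  [(152,130,148), (153,130,149), (154,130,150), (155,130,151), (156,131,149), (157,131,150), (158,131,151), (159,132,150), (160,132,151), (161,133,151), (174,130,170), (175,130,171), (176,130,172), (177,130,173), (178,131,171), (179,131,172), (180,131,173), (181,132,172), (182,132,173), (183,133,173), (184,136,170), (185,136,171), (186,136,172), (187,136,173), (188,137,171), (189,137,172), (190,137,173), (191,138,172), (192,138,173), (193,139,173), (194,130,188), (195,130,189), (196,130,190), (197,130,191), (198,130,192), (199,130,193), (200,131,191), (201,131,192), (202,131,193), (203,132,193), (204,142,188), (205,142,189), (206,142,190), (207,142,191), (208,142,192), (209,142,193), (210,143,191), (211,143,192), (212,143,193), (213,144,193), (214,130,210), (215,130,211), (216,130,212), (217,130,213), (218,131,213), (219,136,210), (220,136,211), (221,136,212), (222,136,213), (223,137,213), (224,130,223), (225,142,223), (226,164,210), (227,164,211), (228,164,212), (229,164,213), (230,165,213), (231,130,230), (232,136,230), (233,142,230),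 (234,147,230), (235,130,234), (236,131,234), (237,132,234), (238,133,234), (239,134,234)]


/-- A seed of its level. -/
noncomputable def seedB (r : ℕ) : Bool :=
  cond (decide (v r = 1)) (Nat.beq r (T.simpleAt 3)) (decide (v (T.piAt 3 r) < v r))

/-- One step of the reachability certificate. -/
noncomputable def stepB (known : List ℕ) (r b r' : ℕ) : Bool :=
  Nat.blt r T.n && decide (1 ≤ v r) && Nat.blt b T.n && decide (v b = 0) && Nat.blt r' T.n &&
    decide (v r' = v r) && (seedB r' || known.elem r') &&
    (List.range T.n).all fun s => !decide (v s = v r) ||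
      decide ((((T.terms b s).map fun c => if c.1 = r' then c.2.1 else 0).sum : ℤ) % 2 = if s = r then 1 else 0)

/-- The reachability check. -/
noncomputable def reachB : List (ℕ × ℕ × ℕ) → List ℕ → Bool
  | [], known => (List.range T.n).all fun r => !decide (1 ≤ v r) || seedB r || known.elem r
  | (r, b, r') :: L, known => stepB known r b r' && reachB L (r :: known)

/-- The generation check. -/
noncomputable def genB : Bool :=
  (List.range T.n).all fun r => !decide (2 ≤ v r) || genCert.any fun x =>
    Nat.beq x.1 r && Nat.blt x.2.1 T.n && Nat.blt x.2.2 T.n && decide (v x.2.1 = 1) &&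
      decide (v x.2.2 = v r - 1) && !Nat.beq x.2.2 x.2.1 &&
      match T.terms x.2.1 x.2.2 with
      | [(y, M, _, _)] => Nat.beq y r && decide (M % 2 = 1)
      | _ => false

/-- The other checks. -/
noncomputable def miscB : Bool :=
  (List.range T.n).all fun s => decide (v s ≤ 6) && (!decide (1 ≤ v s) ||
    (((List.range T.l).any fun j => decide (T.carAt j s % 2 = 1)) &&
      (Nat.beq s (T.simpleAt 3) || decide (v s - 1 ≤ v (T.piAt 3 s)))))

theorem misc_ok : miscB = true := by decide +kernel

theorem six_ok : (List.range T.n).any (fun s => decide (v s = 6)) = true := by decide +kernel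

theorem reach_ok : reachB reachCert [] = true := by decide +kernel

theorem gen_ok : genB = true := by decide +kernel

theorem valid : T.Valid chevE8 := DataE8.valid

theorem nroots : chevE8.nroots = T.n := valid.hL.nroots

theorem odd_cast {x : ℤ} (h : x % 2 = 1) : (x : ZMod 2) = 1 := by
  rw [← Int.cast_one, ZMod.intCast_eq_intCast_iff']
  simpa using h

theorem seed_sound {k r : ℕ} (hk : v r = (k : ℤ)) (h : seedB r = true) : Reach sysE8.{0} 3 k r := by
  refine Reach.seed ?_
  rw [seedB] at h
  split_ifs with h1
  · subst h1
    rw [hk] at h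
    simp only [Nat.cast_one, decide_true, cond_true] at h
    rw [Tbl.simpled valid.hL]
    exact Nat.eq_of_beq_eq_true h
  · have : ¬ v r = 1 := by rw [hk]; exact_mod_cast h1
    rw [decide_eq_false this, cond_false, decide_eq_true_eq] at h
    show v (T.piAt 3 r) < (k : ℤ)
    omega

theorem reach_sound : ∀ (L : List (ℕ × ℕ × ℕ)) (known : List ℕ),
    (∀ r ∈ known, ∀ k : ℕ, v r = (k : ℤ) → Reach sysE8.{0} 3 k r) → reachB L known = true →
    ∀ r < T.n, ∀ k : ℕ, 1 ≤ k → v r = (k : ℤ) → Reach sysE8.{0} 3 k r := by
  intro L
  induction L with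
  | nil =>
    intro known hkn h r hr k hk hv
    simp only [reachB, List.all_eq_true, List.mem_range, Bool.or_eq_true, Bool.not_eq_true',
      decide_eq_false_iff_not] at h
    rcases h r hr with (h' | h') | h'
    · exact absurd (by omega) h'
    · exact seed_sound hv h'
    · exact hkn r (List.elem_iff.1 h') k hv
  | cons x L ih =>
    obtain ⟨r₀, b, r'⟩ := x
    intro known hkn h
    simp only [reachB, stepB, Bool.and_eq_true, List.all_eq_true, List.mem_range, Bool.or_eq_true,
      Bool.not_eq_true', decide_eq_false_iff_not, decide_eq_true_eq, Nat.blt_eq] at h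
    obtain ⟨⟨⟨⟨⟨⟨⟨⟨hr₀, h1⟩, hb⟩, hb0⟩, hr'⟩, hv'⟩, hp⟩, hit⟩, hrest⟩ := h
    refine ih (r₀ :: known) ?_ hrest
    intro r hr k hv
    rcases List.mem_cons.1 hr with rfl | hr
    · refine Reach.step (b := b) (r' := r') (nroots ▸ hb) hb0 (nroots ▸ hr') (hv'.trans hv) ?_ ?_
      · rcases hp with hp | hp
        · exact seed_sound (hv'.trans hv) hp
        · exact hkn r' (List.elem_iff.1 hp) k (hv'.trans hv)
      · intro s hs hvs
        rw [valid.commTermsd hb (nroots ▸ hs)]
        rcases hit s (nroots ▸ hs) with hn | he
        · exact absurd (show v s = v r from hvs.trans hv.symm) hn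
        · by_cases e : s = r
          · rw [if_pos e] at he ⊢
            exact odd_cast he
          · rw [if_neg e] at he ⊢
            exact (ZMod.intCast_zmod_eq_zero_iff_dvd _ 2).2 (Int.dvd_of_emod_eq_zero he)
    · exact hkn r hr k hv

/-- The certificate. -/
theorem cert : Cert sysE8.{0} 3 := by
  have hmisc : ∀ s < T.n, v s ≤ 6 ∧ (1 ≤ v s → (∃ j < T.l, T.carAt j s % 2 = 1) ∧
      (s ≠ T.simpleAt 3 → v s - 1 ≤ v (T.piAt 3 s))) := by
    intro s hs
    have h := misc_ok
    simp only [miscB, List.all_eq_true, List.mem_range, Bool.and_eq_true, Bool.or_eq_true,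
      Bool.not_eq_true', decide_eq_false_iff_not, decide_eq_true_eq, List.any_eq_true] at h
    refine ⟨(h s hs).1, fun h1 => ?_⟩
    rcases (h s hs).2 with hn | ⟨hj, hd⟩
    · exact absurd h1 hn
    · exact ⟨hj, fun hne => hd.resolve_left fun e => hne (Nat.eq_of_beq_eq_true e)⟩
  have h8 : chevE8.rank = T.l := valid.hL.rank
  refine ⟨by decide, fun s hs h1 hne => ?_, fun s hs => (hmisc s (nroots ▸ hs)).1, ?_, fun s hs h1 => ?_,
    fun k hk r hr hv => reach_sound reachCert [] (by simp) reach_ok r (nroots ▸ hr) k hk hv, ?_⟩
  · rw [Tbl.simpled valid.hL] at hne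
    exact ((hmisc s (nroots ▸ hs)).2 h1).2 hne
  · have h := six_ok
    simp only [List.any_eq_true, List.mem_range, decide_eq_true_eq] at h
    obtain ⟨s, hs, h⟩ := h
    exact ⟨s, nroots ▸ hs, h⟩
  · obtain ⟨j, hj, h⟩ := ((hmisc s (nroots ▸ hs)).2 h1).1
    refine ⟨j, h8 ▸ hj, ?_⟩
    rw [valid.cart hj (nroots ▸ hs)]
    exact odd_cast h
  · intro r hr h2
    have h := gen_ok
    simp only [genB, List.all_eq_true, List.mem_range, Bool.or_eq_true, Bool.not_eq_true',
      decide_eq_false_iff_not, List.any_eq_true, Bool.and_eq_true, decide_eq_true_eq, Nat.blt_eq] at h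
    rcases h r (nroots ▸ hr) with hn | ⟨⟨x, s, s'⟩, -, ⟨⟨⟨⟨⟨-, hs⟩, hs'⟩, hv1⟩, hv2⟩, hne⟩, hm⟩
    · exact absurd h2 hn
    · refine ⟨s, nroots ▸ hs, s', nroots ▸ hs', hv1, hv2,
        fun e => by simp [e] at hne, fun _ _ _ => ?_⟩
      rw [valid.commTermsd hs hs']
      split at hm
      · next y M p q heq =>
        rw [Bool.and_eq_true, decide_eq_true_eq] at hm
        obtain rfl := Nat.eq_of_beq_eq_true hm.1
        exact ⟨M, p, q, heq, odd_cast hm.2⟩
      · exact absurd hm Bool.false_ne_true

end CfsgLib.SixStep.CertE8
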