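import Cfsg.Agent.Chev.BorelTits.Main
import Cfsg.Agent.Chev.ParabolicCentralizer
import Cfsg.Agent.PCore.AxB

/-!
# The mutual core series of two neighbouring parabolic subgroups over the field of two elements

`P = P_J` omits one fundamental root `a`; `v r` is the coefficient of `a` in the root `r`, `Q k` the product
of the root groups with `k ≤ v r`, and `n` the monomial element of `a`.
-/

set_option autoImplicit false
set_option linter.unusedSectionVars false

namespace CfsgLib.SixStep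

open Cfsg.Lie Matrix CfsgLib.Chev

variable {D : ChevalleyDatum} (S : Sys.{0} D) (a : ℕ)

theorem two_cases (t : ZMod 2) : t = 0 ∨ t = 1 := by revert t; decide

/-- The complement of the omitted fundamental root. -/
def jset : Set ℕ := {i | i ≠ a}

/-- The parabolic subgroup omitting `a`. -/
def par : Subgroup (GL D.Idx (ZMod 2)) := D.parabolicSubgroup (ZMod 2) (jset a)

/-- The levels of the radical. -/
def lq (k : ℕ) : Subgroup (GL D.Idx (ZMod 2)) := S.genBy (ZMod 2) fun r => (k : ℤ) ≤ S.vec r a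

/-- The monomial element of `a`. -/
def ne' : GL D.Idx (ZMod 2) := S.nU (D.simple a) 1

/-- The level of a basis vector. -/
noncomputable def wgt (x : D.Idx) : ℤ := (S.omega (jset a) x : ℤ)

/-- Entries off the diagonal only raise the level, by at least `k`. -/
def Rz (k : ℕ) (M : Matrix D.Idx D.Idx (ZMod 2)) : Prop :=
  ∀ x y, x ≠ y → M x y ≠ 0 → wgt S a y + k ≤ wgt S a x

/-- Reachability of a root of level `k` from the seeds by root elements of level zero. -/
inductive Reach (k : ℕ) : ℕ → Prop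
  | seed {r : ℕ} (h : if k = 1 then r = D.simple a else S.vec (S.pi a r) a < (k : ℤ)) : Reach k r
  | step {r b r' : ℕ} (hb : b < D.nroots) (hb0 : S.vec b a = 0) (hr' : r' < D.nroots)
      (hk : S.vec r' a = (k : ℤ)) (hrec : Reach k r')
      (hit : ∀ s < D.nroots, S.vec s a = (k : ℤ) →
        ((((D.commTerms b s).map fun c => if c.1 = r' then c.2.1 else 0).sum : ℤ) : ZMod 2) =
          if s = r then 1 else 0) : Reach k r

/-- What has to be known about the root system. -/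
structure Cert where
  lt : a < D.rank
  drop : ∀ s < D.nroots, 1 ≤ S.vec s a → s ≠ D.simple a → S.vec s a - 1 ≤ S.vec (S.pi a s) a
  top : ∀ s < D.nroots, S.vec s a ≤ 6
  six : ∃ s < D.nroots, S.vec s a = 6
  odd : ∀ s < D.nroots, 1 ≤ S.vec s a → ∃ j < D.rank, (D.cartan j s : ZMod 2) = 1
  reach : ∀ k : ℕ, 1 ≤ k → ∀ r < D.nroots, S.vec r a = (k : ℤ) → Reach S a k r
  gen : ∀ r < D.nroots, 2 ≤ S.vec r a → ∃ s < D.nroots, ∃ s' < D.nroots, S.vec s a = 1 ∧
    S.vec s' a = S.vec r a - 1 ∧ s' ≠ s ∧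
    ∀ i, i ∈ ({s, s'} : Finset ℕ) → D.nroots / 2 ≤ i →
      ∃ (M : ℤ) (p q : ℕ), D.commTerms s s' = [(r, M, p, q)] ∧ (M : ZMod 2) = 1

/-- The coordinate of a root. -/
noncomputable def co (r : ℕ) (g : GL D.Idx (ZMod 2)) : ZMod 2 :=
  if h : r < D.nroots ∧ ∃ j < D.rank, (D.cartan j r : ZMod 2) = 1 then
    (g : Matrix D.Idx D.Idx (ZMod 2)) (Sum.inr ⟨r, h.1⟩)
      (Sum.inl ⟨h.2.choose, h.2.choose_spec.1⟩)
  else 0

variable {S a} (C : Cert S a)
include C

theorem pos_of_lev {r : ℕ} (hr : r < D.nroots) (h : 1 ≤ S.vec r a) : D.nroots / 2 ≤ r := by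
  by_contra hneg
  have h4 := S.vec_nonneg _ (S.neg_lt hr)
    (by rw [S.neg_eq _ hr]; have := S.even_nroots; omega) a C.lt
  rw [S.vec_neg _ hr a C.lt] at h4
  omega

theorem inJ_iff {r : ℕ} : S.InJ (jset a) r ↔ r < D.nroots ∧ S.vec r a = 0 := by
  constructor
  · exact fun h => ⟨h.1, h.2 a C.lt fun h' => h' rfl⟩
  · rintro ⟨h1, h2⟩
    exact ⟨h1, fun i hi hiJ => by
      have : i = a := by by_contra h; exact hiJ h
      rw [this, h2]⟩

theorem wsum (r : ℕ) :
    ∑ i ∈ Finset.range D.rank, Set.indicator (jset a)ᶜ (fun i => S.vec r i) i = S.vec r a := by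
  rw [Finset.sum_eq_single_of_mem a (Finset.mem_range.2 C.lt)]
  · rw [Set.indicator_of_mem]; simp [jset]
  · intro b _ hb
    rw [Set.indicator_of_notMem]; simpa [jset] using hb

theorem diag_bot : D.diagonalSubgroup (ZMod 2) = ⊥ := by
  rw [Subgroup.eq_bot_iff_forall]
  intro g hg
  obtain ⟨z, rfl⟩ := S.exists_dg hg
  rw [S.dg_congr (z' := (1 : ℕ → (ZMod 2)ˣ)) fun i _ => Subsingleton.elim _ _]
  exact map_one S.dgHom

/-- Induction on the parabolic subgroup. -/
theorem par_induction (G : Geo D) {motive : ∀ g : GL D.Idx (ZMod 2), g ∈ par a → Prop}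
    (h1 : motive 1 (one_mem _))
    (hgen : ∀ b < D.nroots, 0 ≤ S.vec b a → ∀ h : S.xU b 1 ∈ par a, motive (S.xU b 1) h)
    (hmul : ∀ g h hg hh, motive g hg → motive h hh → motive (g * h) (mul_mem hg hh)) {g : GL D.Idx (ZMod 2)}
    (hg : g ∈ par a) : motive g hg := by
  suffices H : ∀ g, g ∈ par a → ∀ h : g ∈ par a, motive g h from H g hg hg
  clear hg g
  intro g hg
  let p : GL D.Idx (ZMod 2) → Prop := fun g => ∀ h : g ∈ par a, motive g h
  show p g
  replace h1 : p 1 := fun _ => h1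
  have hgen' : ∀ (r : ℕ) (t : ZMod 2), (D.IsPosRoot r ∨ D.InRootSub (jset a) r) → p (S.xU r t) := by
    intro r t hr
    rcases two_cases t with rfl | rfl
    · rwa [S.xU_zero]
    rcases hr with hr | hr
    · exact hgen r ((S.isPos_iff r).1 hr).2
        (S.vec_nonneg r ((S.isPos_iff r).1 hr).2 ((S.isPos_iff r).1 hr).1 a C.lt)
    · obtain ⟨h, h'⟩ := (inJ_iff C).1 ((S.inRootSub_iff G _ r).1 hr)
      exact hgen r h h'.ge
  have hP := S.parabolic_eq (F := ZMod 2) G (jset a)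
  rw [diag_bot C, bot_sup_eq] at hP
  have hpar : ∀ x, x ∈ par (D := D) a ↔ x ∈ D.parabolicSubgroup (ZMod 2) (jset a) := fun x => Iff.rfl
  rw [hpar, hP] at hg
  induction hg using Subgroup.closure_induction'' with
  | mem x hx => obtain ⟨r, t, hr, he⟩ := hx; rw [S.eq_xU he]; exact hgen' r t hr
  | inv_mem x hx => obtain ⟨r, t, hr, he⟩ := hx; rw [S.eq_xU he, S.xU_inv]; exact hgen' r _ hr
  | one => exact h1
  | mul x y hx hy ihx ihy =>
    exact fun _ => hmul x y (by rw [hpar, hP]; exact hx) (by rw [hpar, hP]; exact hy) (ihx _) (ihy _)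

theorem xU_mem_par {b : ℕ} (hb : b < D.nroots) (h : 0 ≤ S.vec b a) (t : ZMod 2) :
    S.xU b t ∈ par (D := D) a := by
  by_cases h0 : S.vec b a = 0
  · exact S.xU_mem_parabolic b ((inJ_iff C).2 ⟨hb, h0⟩) t
  · exact Subgroup.mem_sup_left (Subgroup.mem_sup_left
      (S.xU_mem_posUnipotent (pos_of_lev C hb (by omega)) hb t))

theorem xU_mem_lq {k s : ℕ} (hs : s < D.nroots) (hk : 1 ≤ k) (h : (k : ℤ) ≤ S.vec s a) (t : ZMod 2) :
    S.xU s t ∈ lq S a k :=
  S.xU_mem_genBy (pos_of_lev C hs (by omega)) hs h t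

theorem lq_mono {k l : ℕ} (h : k ≤ l) : lq S a l ≤ lq S a k :=
  S.genBy_le fun r h1 h2 h3 t => S.xU_mem_genBy h1 h2
    (show (k : ℤ) ≤ S.vec r a from le_trans (by exact_mod_cast h) h3) t

theorem lq_le_par (k : ℕ) : lq S a k ≤ par a :=
  (S.genBy_le_pos _).trans (le_sup_of_le_left le_sup_left)

theorem lq_seven {k : ℕ} (hk : 7 ≤ k) : lq S a k = ⊥ := by
  rw [eq_bot_iff]
  refine S.genBy_le fun r h1 h2 h3 t => ?_
  have := C.top r h2
  omega

theorem lq_induction {k : ℕ} {motive : ∀ g : GL D.Idx (ZMod 2), g ∈ lq S a k → Prop}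
    (h1 : motive 1 (one_mem _))
    (hgen : ∀ s < D.nroots, (k : ℤ) ≤ S.vec s a → ∀ h : S.xU s 1 ∈ lq S a k, motive (S.xU s 1) h)
    (hmul : ∀ g h hg hh, motive g hg → motive h hh → motive (g * h) (mul_mem hg hh)) {g : GL D.Idx (ZMod 2)}
    (hg : g ∈ lq S a k) : motive g hg := by
  suffices H : ∀ g, g ∈ lq S a k → ∀ h : g ∈ lq S a k, motive g h from H g hg hg
  clear hg g
  intro g hg
  let p : GL D.Idx (ZMod 2) → Prop := fun g => ∀ h : g ∈ lq S a k, motive g h
  show p g
  replace h1 : p 1 := fun _ => h1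
  have hgen' : ∀ (s : ℕ) (t : ZMod 2), s < D.nroots → (k : ℤ) ≤ S.vec s a → p (S.xU s t) := by
    intro s t hs hk
    rcases two_cases t with rfl | rfl
    · rwa [S.xU_zero]
    · exact hgen s hs hk
  induction hg using Subgroup.closure_induction'' with
  | mem x hx => obtain ⟨s, t, -, hs, hk, rfl⟩ := hx; exact hgen' s t hs hk
  | inv_mem x hx => obtain ⟨s, t, -, hs, hk, rfl⟩ := hx; rw [S.xU_inv]; exact hgen' s _ hs hk
  | one => exact h1
  | mul x y hx hy ihx ihy => exact fun _ => hmul x y hx hy (ihx _) (ihy _)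

theorem word_mem {b s : ℕ} (hb : b < D.nroots) (hb0 : 0 ≤ S.vec b a) (hs : s < D.nroots) {k : ℕ}
    (hk : 1 ≤ k) (hsk : (k : ℤ) ≤ S.vec s a) {m : ℕ} (hm : (m : ℤ) ≤ k + S.vec b a) (t u : ZMod 2) :
    S.wU (D.commWord (ZMod 2) b s t u) ∈ lq S a m := by
  rw [Sys.wU]
  refine Subgroup.list_prod_mem _ fun x hx => ?_
  simp only [List.mem_map, ChevalleyDatum.commWord] at hx
  obtain ⟨p, ⟨c, hc, rfl⟩, rfl⟩ := hx
  obtain ⟨hlt, i, j, hi, hj, hvec⟩ := S.commTerms_vec hb hs hc
  have h0 := hvec a C.lt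
  have h1 : 1 ≤ S.vec c.1 a := by rw [h0]; nlinarith
  exact S.xU_mem_genBy (pos_of_lev C hlt h1) hlt
    (show (m : ℤ) ≤ S.vec c.1 a by rw [h0]; nlinarith) _

theorem inv_self (s : ℕ) : (S.xU s (1 : ZMod 2))⁻¹ = S.xU s 1 := by
  rw [S.xU_inv]; congr 1

theorem conj_gen {b s : ℕ} (hb : b < D.nroots) (hb0 : 0 ≤ S.vec b a) (hs : s < D.nroots) (hne : s ≠ b)
    (h1 : 1 ≤ S.vec s a) :
    S.xU b 1 * S.xU s 1 * (S.xU b 1)⁻¹ = S.xU s 1 * S.wU (D.commWord (ZMod 2) b s (-1) 1) := by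
  have hne' : s ≠ D.neg b := by
    intro e
    rw [e, S.vec_neg b hb a C.lt] at h1
    omega
  rw [S.xU_inv, mul_assoc, S.comm_wU hb hs hne hne' (-1) 1, ← mul_assoc, ← mul_assoc, S.xU_add,
    add_neg_cancel, S.xU_zero, one_mul]

theorem commGen_mem {b s : ℕ} (hb : b < D.nroots) (hb0 : 0 ≤ S.vec b a) (hs : s < D.nroots) {k : ℕ}
    (hk : 1 ≤ k) (hsk : (k : ℤ) ≤ S.vec s a) {m : ℕ} (hm1 : 1 ≤ m) (hm : (m : ℤ) ≤ k + S.vec b a)
    (G : Geo D) : S.xU b 1 * S.xU s 1 * (S.xU b 1)⁻¹ * (S.xU s 1)⁻¹ ∈ lq S a m := by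
  by_cases hne : s = b
  · subst hne
    rw [mul_inv_cancel_right, mul_inv_cancel]
    exact one_mem _
  rw [conj_gen C hb hb0 hs hne (by omega)]
  have hw := word_mem C hb hb0 hs hk hsk hm (-1) 1
  by_cases hsm : (m : ℤ) ≤ S.vec s a
  · exact mul_mem (mul_mem (xU_mem_lq C hs hm1 hsm 1) hw) (inv_mem (xU_mem_lq C hs hm1 hsm 1))
  -- conjugating back: `xU s w xU s` stays in the level of `w`
  have key : ∀ y ∈ lq S a m, S.xU s 1 * y * (S.xU s 1)⁻¹ ∈ lq S a m := by
    intro y hy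
    induction hy using lq_induction C with
    | h1 => simp
    | hgen r hr hrm =>
      by_cases hne' : r = s
      · subst hne'; exact absurd hrm hsm
      rw [conj_gen C hs (by omega) hr hne' (by omega)]
      exact mul_mem (xU_mem_lq C hr hm1 hrm 1) (word_mem C hs (by omega) hr hm1 hrm (by omega) _ _)
    | hmul g h _ _ hg hh =>
      have := mul_mem hg hh
      rwa [show S.xU s 1 * g * (S.xU s 1)⁻¹ * (S.xU s 1 * h * (S.xU s 1)⁻¹) =
        S.xU s 1 * (g * h) * (S.xU s 1)⁻¹ by group] at this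
  exact key _ hw

theorem conj_lq {k : ℕ} (hk : 1 ≤ k) (G : Geo D) {p : GL D.Idx (ZMod 2)} (hp : p ∈ par a) :
    ∀ y ∈ lq S a k, p * y * p⁻¹ ∈ lq S a k := by
  induction hp using par_induction C G with
  | h1 => intro y hy; simpa using hy
  | hgen b hb hb0 =>
    intro y hy
    induction hy using lq_induction C with
    | h1 => simp
    | hgen s hs hsk =>
      have := mul_mem (commGen_mem C hb hb0 hs hk hsk hk (by omega) G) (xU_mem_lq C hs hk hsk 1)
      rwa [inv_mul_cancel_right] at this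
    | hmul g h _ _ hg hh =>
      have := mul_mem hg hh
      rwa [show S.xU b 1 * g * (S.xU b 1)⁻¹ * (S.xU b 1 * h * (S.xU b 1)⁻¹) =
        S.xU b 1 * (g * h) * (S.xU b 1)⁻¹ by group] at this
  | hmul g h _ _ ihg ihh =>
    intro y hy
    have := ihg _ (ihh y hy)
    rwa [show g * (h * y * h⁻¹) * g⁻¹ = g * h * y * (g * h)⁻¹ by group] at this

theorem comm_lq {k l : ℕ} (hk : 1 ≤ k) (hl : 1 ≤ l) (G : Geo D) {x y : GL D.Idx (ZMod 2)}
    (hx : x ∈ lq S a l) (hy : y ∈ lq S a k) : x * y * x⁻¹ * y⁻¹ ∈ lq S a (k + l) := by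
  induction hx using lq_induction C generalizing y with
  | h1 => simp
  | hgen b hb hbl =>
    induction hy using lq_induction C with
    | h1 => simp
    | hgen s hs hsk => exact commGen_mem C hb (by omega) hs hk hsk (by omega) (by push_cast; omega) G
    | hmul g h hg hh ihg ihh =>
      have := mul_mem ihg (conj_lq C (show 1 ≤ k + l by omega) G (lq_le_par C k hg) _ ihh)
      rwa [show S.xU b 1 * g * (S.xU b 1)⁻¹ * g⁻¹ * (g * (S.xU b 1 * h * (S.xU b 1)⁻¹ * h⁻¹) * g⁻¹) =
        S.xU b 1 * (g * h) * (S.xU b 1)⁻¹ * (g * h)⁻¹ by group] at this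
  | hmul g h hg hh ihg ihh =>
    have := mul_mem (conj_lq C (show 1 ≤ k + l by omega) G (lq_le_par C l hg) _ (ihh hy)) (ihg hy)
    rwa [show g * (h * y * h⁻¹ * y⁻¹) * g⁻¹ * (g * y * g⁻¹ * y⁻¹) = g * h * y * (g * h)⁻¹ * y⁻¹ by group] at this

/-! ### Matrix entries -/

theorem rz_xU {k b : ℕ} (hb : b < D.nroots) (hk : (k : ℤ) ≤ S.vec b a) (t : ZMod 2) :
    Rz S a k (D.x (ZMod 2) b t) := by
  intro x y hxy h
  rcases S.x_entry_weight (jset a) hb t x y with h' | ⟨m, hm, h'⟩
  · rw [if_neg hxy] at h'; exact absurd h' h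
  · rw [wsum C] at h'
    have : (1 : ℤ) ≤ m := by exact_mod_cast hm
    simp only [wgt]
    nlinarith

theorem rz_mul {k : ℕ} {M N : Matrix D.Idx D.Idx (ZMod 2)} (hM : Rz S a k M) (hN : Rz S a k N) :
    Rz S a k (M * N) := by
  intro x y hxy h
  rw [Matrix.mul_apply] at h
  obtain ⟨z, -, hz⟩ := Finset.exists_ne_zero_of_sum_ne_zero h
  by_cases h1 : x = z
  · subst h1; exact hN x y hxy (right_ne_zero_of_mul hz)
  by_cases h2 : z = y
  · subst h2; exact hM x z hxy (left_ne_zero_of_mul hz)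
  have := hM x z h1 (left_ne_zero_of_mul hz)
  have := hN z y h2 (right_ne_zero_of_mul hz)
  omega

theorem rz_par (G : Geo D) {g : GL D.Idx (ZMod 2)} (hg : g ∈ par a) :
    Rz S a 0 (g : Matrix D.Idx D.Idx (ZMod 2)) := by
  induction hg using par_induction C G with
  | h1 => intro x y hxy h; exact absurd (Matrix.one_apply_ne hxy) h
  | hgen b hb hb0 => exact rz_xU C hb (by simpa using hb0) 1
  | hmul g h _ _ hg hh => exact rz_mul C hg hh

theorem rz_lq {k : ℕ} {g : GL D.Idx (ZMod 2)} (hg : g ∈ lq S a k) :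
    Rz S a k (g : Matrix D.Idx D.Idx (ZMod 2)) := by
  induction hg using lq_induction C with
  | h1 => intro x y hxy h; exact absurd (Matrix.one_apply_ne hxy) h
  | hgen b hb hb0 => exact rz_xU C hb hb0 1
  | hmul g h _ _ hg hh => exact rz_mul C hg hh

theorem diag_lq {k : ℕ} (hk : 1 ≤ k) {g : GL D.Idx (ZMod 2)} (hg : g ∈ lq S a k) (x : D.Idx) :
    (g : Matrix D.Idx D.Idx (ZMod 2)) x x = 1 := by
  induction hg using lq_induction C with
  | h1 => simp
  | hgen b hb hb0 =>
    rcases S.x_entry_weight (jset a) hb (1 : ZMod 2) x x with h' | ⟨m, hm, h'⟩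
    · simpa using h'
    · rw [wsum C] at h'
      have : (1 : ℤ) ≤ m := by exact_mod_cast hm
      nlinarith
  | hmul g h hgm hhm hg hh =>
    rw [Units.val_mul, Matrix.mul_apply, Finset.sum_eq_single x]
    · rw [hg, hh, mul_one]
    · intro z _ hz
      by_contra h0
      have h1 := rz_lq C hgm x z (Ne.symm hz) (left_ne_zero_of_mul h0)
      have h2 := rz_lq C hhm z x hz (right_ne_zero_of_mul h0)
      omega
    · simp

theorem wgt_diff (r : Fin D.nroots) (j : Fin D.rank) :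
    wgt S a (Sum.inr r) = wgt S a (Sum.inl j) + S.vec r a := by
  simp only [wgt, S.omega_inr, S.omega_inl, wsum C]

theorem co_mul {k r : ℕ} (hk : 1 ≤ k) (hv : S.vec r a = (k : ℤ)) {g h : GL D.Idx (ZMod 2)}
    (hg : g ∈ lq S a k) (hh : h ∈ lq S a k) : co r (g * h) = co r g + co r h := by
  unfold co
  split_ifs with hr
  · set x : D.Idx := Sum.inr ⟨r, hr.1⟩
    set y : D.Idx := Sum.inl ⟨hr.2.choose, hr.2.choose_spec.1⟩
    have hw : wgt S a x = wgt S a y + k := by rw [wgt_diff C, hv]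
    rw [Units.val_mul, Matrix.mul_apply,
      Finset.sum_eq_add_of_mem x y (Finset.mem_univ _) (Finset.mem_univ _) (by simp [x, y])]
    · rw [diag_lq C hk hg x, diag_lq C hk hh y, one_mul, mul_one, add_comm]
    · intro z _ hz
      by_contra h0
      have h1 := rz_lq C hg x z (Ne.symm hz.1) (left_ne_zero_of_mul h0)
      have h2 := rz_lq C hh z y hz.2 (right_ne_zero_of_mul h0)
      omega
  · simp

theorem co_xU {r s : ℕ} (hr : r < D.nroots) (h1 : 1 ≤ S.vec r a) (hs : s < D.nroots) (t : ZMod 2) :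
    co r (S.xU s t) = if s = r then t else 0 := by
  have h : r < D.nroots ∧ ∃ j < D.rank, (D.cartan j r : ZMod 2) = 1 := ⟨hr, C.odd r hr h1⟩
  rw [co, dif_pos h, S.coe_xU, ← mulVec_single_col (D.x (ZMod 2) s t), ← hv_eq h.2.choose_spec.1,
    S.x_hv s hs t _ h.2.choose_spec.1]
  by_cases e : s = r
  · subst e
    rw [if_pos rfl]
    simp [hv_inr, ev_inr, h.2.choose_spec.2]
  · rw [if_neg e]
    simp [hv_inr, ev_inr, Ne.symm e]

theorem co_one {r k : ℕ} (hk : 1 ≤ k) (hv : S.vec r a = (k : ℤ)) : co r (1 : GL D.Idx (ZMod 2)) = 0 := by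
  have := co_mul C hk hv (one_mem (lq S a k)) (one_mem (lq S a k))
  rw [mul_one] at this
  exact (add_eq_left).1 this.symm

theorem co_zero_of_higher {r k : ℕ} (hk : 1 ≤ k) (hr : r < D.nroots) (hv : S.vec r a = (k : ℤ))
    {g : GL D.Idx (ZMod 2)} (hg : g ∈ lq S a (k + 1)) : co r g = 0 := by
  induction hg using lq_induction C with
  | h1 => exact co_one C hk hv
  | hgen s hs hsk =>
    rw [co_xU C hr (by omega) hs, if_neg]
    rintro rfl
    push_cast at hsk
    omega
  | hmul g h hg hh ihg ihh =>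
    rw [co_mul C hk hv (lq_mono C k.le_succ hg) (lq_mono C k.le_succ hh), ihg, ihh, add_zero]

theorem co_prod {r k : ℕ} (hk : 1 ≤ k) (hr : r < D.nroots) (hv : S.vec r a = (k : ℤ)) :
    ∀ L : List (ℕ × ℤ × ℕ × ℕ), (∀ c ∈ L, c.1 < D.nroots ∧ (k : ℤ) ≤ S.vec c.1 a) →
      S.wU (L.map fun c => (c.1, (c.2.1 : ZMod 2))) ∈ lq S a k ∧
      co r (S.wU (L.map fun c => (c.1, (c.2.1 : ZMod 2)))) =
        ((L.map fun c => if c.1 = r then c.2.1 else 0).sum : ℤ) := by
  intro L
  induction L with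
  | nil => exact fun _ => ⟨one_mem _, by simpa [Sys.wU] using co_one C hk hv⟩
  | cons c L ih =>
    intro hL
    obtain ⟨h1, h2⟩ := ih fun x hx => hL x (List.mem_cons_of_mem _ hx)
    obtain ⟨hc1, hc2⟩ := hL c (List.mem_cons_self ..)
    rw [List.map_cons, Sys.wU_cons]
    refine ⟨mul_mem (xU_mem_lq C hc1 hk hc2 _) h1, ?_⟩
    rw [co_mul C hk hv (xU_mem_lq C hc1 hk hc2 _) h1, co_xU C hr (by omega) hc1, h2, List.map_cons,
      List.sum_cons, Int.cast_add]
    split_ifs <;> simp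

/-- The coordinates of a conjugate. -/
theorem co_conj {k r b r' : ℕ} (hk : 1 ≤ k) (G : Geo D) (hr : r < D.nroots) (hv : S.vec r a = (k : ℤ))
    (hb : b < D.nroots) (hb0 : S.vec b a = 0) (hr' : r' < D.nroots) (hv' : S.vec r' a = (k : ℤ))
    (hit : ∀ s < D.nroots, S.vec s a = (k : ℤ) →
        ((((D.commTerms b s).map fun c => if c.1 = r' then c.2.1 else 0).sum : ℤ) : ZMod 2) =
          if s = r then 1 else 0) {g : GL D.Idx (ZMod 2)} (hg : g ∈ lq S a k) :
    co r' (S.xU b 1 * g * (S.xU b 1)⁻¹) = co r' g + co r g := by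
  have hbP := xU_mem_par C hb hb0.ge (1 : ZMod 2)
  induction hg using lq_induction C with
  | h1 => simp [co_one C hk hv, co_one C hk hv']
  | hgen s hs hsk =>
    have hne : s ≠ b := by rintro rfl; omega
    rw [conj_gen C hb hb0.ge hs hne (by omega),
      co_mul C hk hv' (xU_mem_lq C hs hk hsk 1) (word_mem C hb hb0.ge hs hk hsk (by omega) _ _)]
    congr 1
    rw [co_xU C hr (by omega) hs]
    by_cases hsk' : S.vec s a = (k : ℤ)
    · have e : D.commWord (ZMod 2) b s (-1) 1 = (D.commTerms b s).map fun c => (c.1, (c.2.1 : ZMod 2)) := by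
        rw [ChevalleyDatum.commWord]
        simp
      rw [e, (co_prod C hk hr' hv' _ fun c hc => ?_).2, hit s hs hsk']
      obtain ⟨hlt, i, j, hi, hj, hvec⟩ := S.commTerms_vec hb hs hc
      refine ⟨hlt, ?_⟩
      rw [hvec a C.lt, hb0]
      nlinarith
    · rw [if_neg (fun e : s = r => hsk' (by rw [e]; exact hv)),
        co_zero_of_higher C hk hr' hv' (word_mem C hb hb0.ge hs (show 1 ≤ k + 1 by omega)
          (by push_cast; omega) (by push_cast; omega) _ _)]
  | hmul g h hgm hhm ihg ihh =>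
    rw [show S.xU b 1 * (g * h) * (S.xU b 1)⁻¹ = (S.xU b 1 * g * (S.xU b 1)⁻¹) * (S.xU b 1 * h * (S.xU b 1)⁻¹) by group,
      co_mul C hk hv' (conj_lq C hk G hbP _ hgm) (conj_lq C hk G hbP _ hhm), ihg, ihh,
      co_mul C hk hv hgm hhm, co_mul C hk hv' hgm hhm]
    ring

/-- Splitting off one root of level `k`. -/
theorem split {k r : ℕ} (hk : 1 ≤ k) (G : Geo D) (hr : r < D.nroots) (hv : S.vec r a = (k : ℤ))
    {p : ℕ → Prop} (hp : ∀ s, p s → (k : ℤ) ≤ S.vec s a ∧ s ≠ r)
    (hp' : ∀ s, ((k : ℤ) + 1) ≤ S.vec s a → p s) {g : GL D.Idx (ZMod 2)}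
    (hg : g ∈ S.genBy (ZMod 2) fun s => p s ∨ s = r) (h0 : co r g = 0) : g ∈ S.genBy (ZMod 2) p := by
  have hrpos := pos_of_lev C hr (by omega)
  have hsub : S.genBy (ZMod 2) p ≤ lq S a k :=
    S.genBy_le fun s h1 h2 h3 t => xU_mem_lq C h2 hk (hp s h3).1 t
  have hup : lq S a (k + 1) ≤ S.genBy (ZMod 2) p :=
    S.genBy_le fun s h1 h2 h3 t => S.xU_mem_genBy h1 h2 (hp' s (by push_cast at h3; omega)) t
  set x := S.xU r (1 : ZMod 2) with hx
  have hxq : x ∈ lq S a k := xU_mem_lq C hr hk hv.ge 1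
  have hxx : x * x = 1 := by rw [hx, S.xU_add, show (1 : ZMod 2) + 1 = 0 from rfl, S.xU_zero]
  have hnorm : ∀ y ∈ S.genBy (ZMod 2) p, x * y * x ∈ S.genBy (ZMod 2) p := by
    intro y hy
    have := mul_mem (hup (lq_mono C (show k + 1 ≤ k + k by omega) (comm_lq C hk hk G hxq (hsub hy)))) hy
    rwa [inv_mul_cancel_right, inv_self C r] at this
  have key : g ∈ S.genBy (ZMod 2) p ∨ x * g ∈ S.genBy (ZMod 2) p := by
    have hgen : ∀ (s : ℕ) (t : ZMod 2), D.nroots / 2 ≤ s → s < D.nroots → (p s ∨ s = r) →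
        S.xU s t ∈ S.genBy (ZMod 2) p ∨ x * S.xU s t ∈ S.genBy (ZMod 2) p := by
      intro s t h1 h2 h3
      rcases h3 with h3 | rfl
      · exact Or.inl (S.xU_mem_genBy h1 h2 h3 t)
      · rcases two_cases t with rfl | rfl
        · exact Or.inl (by rw [S.xU_zero]; exact one_mem _)
        · exact Or.inr (by rw [hxx]; exact one_mem _)
    clear h0
    induction hg using Subgroup.closure_induction'' with
    | mem y hy => obtain ⟨s, t, h1, h2, h3, rfl⟩ := hy; exact hgen s t h1 h2 h3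
    | inv_mem y hy => obtain ⟨s, t, h1, h2, h3, rfl⟩ := hy; rw [S.xU_inv]; exact hgen s _ h1 h2 h3
    | one => exact Or.inl (one_mem _)
    | mul y z _ _ ihy ihz =>
      rcases ihy with hy | hy <;> rcases ihz with hz | hz
      · exact Or.inl (mul_mem hy hz)
      · refine Or.inr ?_
        have := mul_mem (hnorm y hy) hz
        rwa [show x * y * x * (x * z) = x * y * (x * x) * z by group, hxx, mul_one, mul_assoc] at this
      · exact Or.inr (by rw [← mul_assoc]; exact mul_mem hy hz)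
      · refine Or.inl ?_
        have := mul_mem (hnorm _ hy) hz
        rwa [show x * (x * y) * x * (x * z) = (x * x) * y * (x * x) * z by group, hxx, one_mul, mul_one] at this
  rcases key with h | h
  · exact h
  · exfalso
    have hc : ∀ y ∈ S.genBy (ZMod 2) p, co r y = 0 := by
      intro y hy
      have hgen : ∀ (s : ℕ) (t : ZMod 2), s < D.nroots → p s → co r (S.xU s t) = 0 :=
        fun s t h2 h3 => by rw [co_xU C hr (by omega) h2, if_neg (hp s h3).2]
      induction hy using Subgroup.closure_induction'' with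
      | mem z hz => obtain ⟨s, t, -, h2, h3, rfl⟩ := hz; exact hgen s t h2 h3
      | inv_mem z hz => obtain ⟨s, t, -, h2, h3, rfl⟩ := hz; rw [S.xU_inv]; exact hgen s _ h2 h3
      | one => exact co_one C hk hv
      | mul u w hu hw ihu ihw => rw [co_mul C hk hv (hsub hu) (hsub hw), ihu, ihw, add_zero]
    have hgq : g ∈ lq S a k := by
      have := mul_mem hxq (hsub h)
      rwa [← mul_assoc, hxx, one_mul] at this
    have := hc _ h
    rw [co_mul C hk hv hxq hgq, h0, hx, co_xU C hr (by omega) hr, if_pos rfl, add_zero] at this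
    exact one_ne_zero this

theorem mem_succ_of_co {k : ℕ} (hk : 1 ≤ k) (G : Geo D) {g : GL D.Idx (ZMod 2)} (hg : g ∈ lq S a k)
    (h0 : ∀ r < D.nroots, S.vec r a = (k : ℤ) → co r g = 0) : g ∈ lq S a (k + 1) := by
  have key : ∀ m, g ∈ S.genBy (ZMod 2) fun s => (k : ℤ) + 1 ≤ S.vec s a ∨ (S.vec s a = k ∧ m ≤ s) := by
    intro m
    induction m with
    | zero => exact S.genBy_mono (fun s _ _ h => by rcases eq_or_lt_of_le h with h | h
                                                    · exact Or.inr ⟨h.symm, Nat.zero_le _⟩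
                                                    · exact Or.inl h) hg
    | succ m ih =>
      by_cases hm : m < D.nroots ∧ S.vec m a = (k : ℤ)
      · refine split C hk G hm.1 hm.2 ?_ ?_ (S.genBy_mono ?_ ih) (h0 m hm.1 hm.2)
        · rintro s (h | ⟨h, h'⟩)
          · exact ⟨by omega, fun e => by rw [e, hm.2] at h; omega⟩
          · exact ⟨h.ge, by omega⟩
        · exact fun s h => Or.inl h
        · rintro s _ _ (h | ⟨h, h'⟩)
          · exact Or.inl (Or.inl h)
          · rcases eq_or_lt_of_le h' with rfl | h'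
            · exact Or.inr rfl
            · exact Or.inl (Or.inr ⟨h, h'⟩)
      · refine S.genBy_mono ?_ ih
        rintro s _ hs (h | ⟨h, h'⟩)
        · exact Or.inl h
        · rcases eq_or_lt_of_le h' with rfl | h'
          · exact absurd ⟨hs, h⟩ hm
          · exact Or.inr ⟨h, h'⟩
  refine S.genBy_mono ?_ (key D.nroots)
  rintro s _ hs (h | ⟨h, h'⟩)
  · show ((k + 1 : ℕ) : ℤ) ≤ _
    push_cast; exact h
  · omega

end CfsgLib.SixStep
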