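import Cfsg.Agent.SixStep.Core
import Cfsg.Agent.Chev.BN
import Cfsg.Agent.BNPair.Parabolic

/-!
# The parabolic subgroup omitting one fundamental root is maximal
-/

set_option autoImplicit false
set_option linter.unusedSectionVars false

namespace CfsgLib.SixStep

open Cfsg.Lie Matrix CfsgLib.Chev CfsgLib.BNPair

variable {D : ChevalleyDatum} {S : Sys.{0} D} {a : ℕ}

/-- The distinguished generators of a set of fundamental roots. -/
def gens (D : ChevalleyDatum) (J : Set ℕ) : Set (D.group (ZMod 2)) :=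
  {n | ∃ j ∈ J, j < D.rank ∧ ((n : GL D.Idx (ZMod 2)) : Matrix D.Idx D.Idx (ZMod 2)) =
    D.nMat (ZMod 2) (D.simple j) 1}

theorem gens_subset (S : Sys.{0} D) (J : Set ℕ) : gens D J ⊆ (S.bnPair (ZMod 2)).S :=
  fun _ ⟨j, _, hj, e⟩ => ⟨j, hj, e⟩

theorem parabolic_gens (S : Sys.{0} D) (J : Set ℕ) :
    (S.bnPair (ZMod 2)).parabolic (gens D J) =
      (D.parabolicSubgroup (ZMod 2) J).subgroupOf (D.group (ZMod 2)) := by
  apply Subgroup.map_injective (D.group (ZMod 2)).subtype_injective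
  rw [Subgroup.subgroupOf_map_subtype, inf_eq_left.2 (S.parabolic_le_group J)]
  show (((D.borelSubgroup (ZMod 2)).subgroupOf (D.group (ZMod 2))) ⊔ Subgroup.closure (gens D J)).map _ = _
  rw [Subgroup.map_sup, Subgroup.subgroupOf_map_subtype, inf_eq_left.2 S.borel_le_group,
    MonoidHom.map_closure, ChevalleyDatum.parabolicSubgroup]
  congr 2
  ext x
  constructor
  · rintro ⟨n, ⟨j, hj, hj', e⟩, rfl⟩
    exact ⟨j, hj, hj', e⟩
  · rintro ⟨j, hj, hj', e⟩
    have hx : x = S.nU (D.simple j) 1 := Units.ext (e.trans (S.coe_nU _ _).symm)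
    exact ⟨⟨x, hx ▸ S.wU_mem_group _⟩, ⟨j, hj, hj', e⟩, rfl⟩

theorem gen_mem_iff (S : Sys.{0} D) (J : Set ℕ) {j : ℕ} (hj : j < D.rank) :
    S.nG (ZMod 2) j ∈ (S.bnPair (ZMod 2)).parabolic (gens D J) ↔ j ∈ J := by
  refine ⟨fun h => ?_, fun h => Subgroup.mem_sup_right (Subgroup.subset_closure
    ⟨j, h, hj, by rw [S.coe_nG]; exact S.coe_nU _ _⟩)⟩
  obtain ⟨i, hi, hi', e⟩ := mem_of_mem_parabolic (S.bnPair (ZMod 2)) (gens_subset S J)
    ⟨j, hj, by rw [S.coe_nG]; exact S.coe_nU _ _⟩ h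
  have hnn : S.nU (F := ZMod 2) (D.simple j) 1 = S.nU (D.simple i) 1 := by
    rw [← S.coe_nG]
    exact Units.ext (e.trans (S.coe_nU _ _).symm)
  have := S.eq_of_nU_mem_diag (F := ZMod 2) hj hi' (by rw [hnn, inv_mul_cancel]; exact one_mem _)
  rwa [this]

theorem parabolic_ne_top (S : Sys.{0} D) {J : Set ℕ} (hJ : ∃ i, i < D.rank ∧ i ∉ J) :
    (S.bnPair (ZMod 2)).parabolic (gens D J) ≠ ⊤ := by
  obtain ⟨i, hi, hiJ⟩ := hJ
  intro h
  exact hiJ ((gen_mem_iff S J hi).1 (h ▸ Subgroup.mem_top _))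

variable (C : Cert S a)
include C

theorem isCoatom_par : IsCoatom ((par (D := D) a).subgroupOf (D.group (ZMod 2))) := by
  rw [show (par (D := D) a).subgroupOf (D.group (ZMod 2)) =
    (S.bnPair (ZMod 2)).parabolic (gens D (jset a)) from (parabolic_gens S _).symm]
  refine ⟨parabolic_ne_top S ⟨a, C.lt, fun h => h rfl⟩, fun M hM => ?_⟩
  have hB : (S.bnPair (ZMod 2)).B ≤ M := le_sup_left.trans hM.le
  have heq := eq_parabolic (S.bnPair (ZMod 2)) M hB
  by_cases ha : S.nG (ZMod 2) a ∈ M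
  · rw [heq, show (S.bnPair (ZMod 2)).S ∩ (M : Set _) = (S.bnPair (ZMod 2)).S from ?_, parabolic_S]
    refine Set.inter_eq_left.2 ?_
    rintro n ⟨j, hj, e⟩
    have hn : n = S.nG (ZMod 2) j :=
      Subtype.ext ((Units.ext (e.trans (S.coe_nU _ _).symm)).trans (S.coe_nG _).symm)
    by_cases hja : j = a
    · rw [hn, hja]; exact ha
    · rw [hn]; exact hM.le ((gen_mem_iff S _ hj).2 hja)
  · exfalso
    refine hM.not_ge (heq.trans_le (sup_le le_sup_left ((Subgroup.closure_le _).2 ?_)))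
    rintro n ⟨⟨j, hj, e⟩, hnM⟩
    have hn : n = S.nG (ZMod 2) j :=
      Subtype.ext ((Units.ext (e.trans (S.coe_nU _ _).symm)).trans (S.coe_nG _).symm)
    subst hn
    exact (gen_mem_iff S _ hj).2 fun hja : j = a => ha (hja ▸ hnM)

theorem conj_parabolic (G : Geo D) {g : GL D.Idx (ZMod 2)} (hg : g ∈ D.group (ZMod 2)) {J : Set ℕ}
    (hJ : ∃ i, i < D.rank ∧ i ∉ J)
    (h : par (D := D) a ≤ (D.parabolicSubgroup (ZMod 2) J).map (MulAut.conj g).toMonoidHom) :
    g ∈ par a ∧ ∀ r, D.InRootSub J r ↔ D.InRootSub (jset a) r := by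
  let gG : D.group (ZMod 2) := ⟨g, hg⟩
  have hle : (par (D := D) a).subgroupOf (D.group (ZMod 2)) ≤
      ((S.bnPair (ZMod 2)).parabolic (gens D J)).map (MulAut.conj gG).toMonoidHom := by
    intro x hx
    obtain ⟨z, hz, e⟩ := Subgroup.mem_map.1 (h hx)
    refine Subgroup.mem_map.2 ⟨⟨z, S.parabolic_le_group J hz⟩, ?_, Subtype.ext e⟩
    rw [parabolic_gens]
    exact hz
  have hne : ((S.bnPair (ZMod 2)).parabolic (gens D J)).map (MulAut.conj gG).toMonoidHom ≠ ⊤ := by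
    intro e
    apply parabolic_ne_top S hJ
    rw [← Subgroup.comap_map_eq_self_of_injective (f := (MulAut.conj gG).toMonoidHom) (MulAut.conj gG).injective
      ((S.bnPair (ZMod 2)).parabolic (gens D J))]
    exact (congrArg _ e).trans (Subgroup.comap_top _)
  have heq := ((isCoatom_par C).le_iff.1 hle).resolve_left hne
  rw [show (par (D := D) a).subgroupOf (D.group (ZMod 2)) =
    (S.bnPair (ZMod 2)).parabolic (gens D (jset a)) from (parabolic_gens S _).symm] at heq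
  obtain ⟨h1, h2⟩ := parabolic_eq_of_conj (S.bnPair (ZMod 2)) heq
  rw [parabolic_gens] at h1
  refine ⟨h1, fun r => ?_⟩
  have hj : ∀ j < D.rank, (j ∈ J ↔ j ∈ jset a) := fun j hj => by
    rw [← gen_mem_iff S J hj, ← gen_mem_iff S (jset a) hj, h2]
  exact and_congr_right fun _ => forall₂_congr fun i hi => by rw [hj i hi]

end CfsgLib.SixStep
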