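import Cfsg.Agent.SixStep.Step
import Cfsg.Agent.Chev.Simple

/-!
# The series of mutual cores of `P` and its neighbour has length six
-/

set_option autoImplicit false
set_option linter.unusedSectionVars false

namespace CfsgLib.SixStep

open Cfsg.Lie Matrix CfsgLib.Chev

/-- The core in `M` of `X ⊓ M`, as a subgroup of the ambient group. -/
def coreIn {G : Type*} [Group G] (M X : Subgroup G) : Subgroup G := ((X.subgroupOf M).normalCore).map M.subtype

theorem coreIn_le_right {G : Type*} [Group G] {M X : Subgroup G} : coreIn M X ≤ X := by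
  rintro y ⟨z, hz, rfl⟩
  exact (Subgroup.normalCore_le (X.subgroupOf M) hz : z ∈ X.subgroupOf M)

theorem coreIn_conj {G : Type*} [Group G] {M X : Subgroup G} {m y : G} (hm : m ∈ M)
    (hy : y ∈ coreIn M X) : m * y * m⁻¹ ∈ coreIn M X := by
  obtain ⟨z, hz, rfl⟩ := hy
  exact ⟨_, (Subgroup.normalCore_normal _).conj_mem z hz ⟨m, hm⟩, rfl⟩

theorem le_coreIn {G : Type*} [Group G] {M X N : Subgroup G} (hNM : N ≤ M) (hNX : N ≤ X)
    (hn : ∀ m ∈ M, ∀ y ∈ N, m * y * m⁻¹ ∈ N) : N ≤ coreIn M X := by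
  have : (N.subgroupOf M).Normal := ⟨fun y hy m => hn m m.2 y hy⟩
  intro y hy
  refine ⟨⟨y, hNM hy⟩, (Subgroup.normal_le_normalCore (H := X.subgroupOf M) (N := N.subgroupOf M)).2
    (fun z hz => hNX hz) hy, rfl⟩

/-- The two mutual core series. -/
def series {G : Type*} [Group G] (M₁ M₂ : Subgroup G) : ℕ → Subgroup G × Subgroup G
  | 0 => (M₁, M₂)
  | i + 1 => (coreIn M₁ ((series M₁ M₂ i).1 ⊓ (series M₁ M₂ i).2),
      coreIn M₂ ((series M₁ M₂ i).1 ⊓ (series M₁ M₂ i).2))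

variable {D : ChevalleyDatum} (S : Sys.{0} D) {a : ℕ}

variable {S} (C : Cert S a) (G : Geo D)
include C G

theorem conj_drop {k : ℕ} (hk : 1 ≤ k) {y : GL D.Idx (ZMod 2)} (hy : y ∈ lq S a (k + 1)) :
    ne' S a * y * ne' S a ∈ lq S a k := by
  induction hy using lq_induction C with
  | h1 => rw [mul_one, ne_sq C]; exact one_mem _
  | hgen s hs hsk =>
    push_cast at hsk
    have hne : s ≠ D.simple a := by
      rintro rfl
      rw [vec_simple_self C] at hsk
      omega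
    rw [ne_conj_xU C hs]
    exact xU_mem_lq C (S.pi_lt a C.lt s hs) hk (by have := C.drop s hs (by omega) hne; omega) 1
  | hmul g h _ _ hg hh =>
    have := mul_mem hg hh
    rwa [show ne' S a * g * ne' S a * (ne' S a * h * ne' S a) = ne' S a * g * (ne' S a * ne' S a) * h * ne' S a by
      group, ne_sq C, mul_one, mul_assoc (ne' S a) g h] at this

/-- The parabolic subgroup, inside the group. -/
def M₁ : Subgroup (D.group (ZMod 2)) := (par (D := D) a).subgroupOf (D.group (ZMod 2))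

/-- Being in the parabolic subgroup and, from the first step on, in a level. -/
def InL (i : ℕ) (g : GL D.Idx (ZMod 2)) : Prop := g ∈ par (D := D) a ∧ (i ≠ 0 → g ∈ lq S a (i + 1))

omit C G in
theorem mem_M₁ {y : D.group (ZMod 2)} : y ∈ M₁ (D := D) (a := a) ↔ (y : GL D.Idx (ZMod 2)) ∈ par a :=
  Iff.rfl

theorem cancel (y : GL D.Idx (ZMod 2)) : ne' S a * (ne' S a * y * ne' S a) * ne' S a = y := by
  rw [show ne' S a * (ne' S a * y * ne' S a) * ne' S a = (ne' S a * ne' S a) * y * (ne' S a * ne' S a) by group,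
    ne_sq C, one_mul, mul_one]

/-- One step for a subgroup normalised by `P`. -/
theorem up (i : ℕ) {K : Subgroup (GL D.Idx (ZMod 2))} (hnorm : ∀ p ∈ par a, ∀ g ∈ K, p * g * p⁻¹ ∈ K)
    (hK : ∀ g ∈ K, InL (S := S) (a := a) i g ∧ InL (S := S) (a := a) i (ne' S a * g * ne' S a)) :
    ∀ g ∈ K, InL (S := S) (a := a) (i + 1) g := by
  intro g hg
  refine ⟨(hK g hg).1.1, fun _ => ?_⟩
  refine step C G hnorm (k := i + 1) (by omega) (fun g hg => ?_) g hg
  rcases Nat.eq_zero_or_pos i with rfl | hi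
  · exact ⟨step_zero C G hnorm (fun g hg => ⟨(hK g hg).1.1, (hK g hg).2.1⟩) g hg,
      by rw [if_pos rfl]; exact rz_par C G (hK g hg).2.1⟩
  · exact ⟨(hK g hg).1.2 (by omega), by rw [if_neg (by omega)]; exact rz_lq C ((hK g hg).2.2 (by omega))⟩

variable (N₂ : Subgroup (D.group (ZMod 2)))

/-- The bounds at one step. -/
structure Bds (i : ℕ) (A B : Subgroup (D.group (ZMod 2))) : Prop where
  a_le : ∀ y ∈ A, InL (S := S) (a := a) i (y : GL D.Idx (ZMod 2))
  b_le : ∀ y ∈ B, InL (S := S) (a := a) i (ne' S a * y * ne' S a)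
  le_a : ∀ y : D.group (ZMod 2), (y : GL D.Idx (ZMod 2)) ∈ lq S a (i + 1) → y ∈ A
  le_b : ∀ y : D.group (ZMod 2), ne' S a * y * ne' S a ∈ lq S a (i + 1) → y ∈ B

theorem bds_succ (hne : ne' S a ∈ D.group (ZMod 2))
    (hN₂ : ∀ y : D.group (ZMod 2), y ∈ N₂ ↔ ne' S a * (y : GL D.Idx (ZMod 2)) * ne' S a ∈ par a)
    {i : ℕ} {A B : Subgroup (D.group (ZMod 2))} (h : Bds (S := S) (a := a) i A B) :
    Bds (S := S) (a := a) (i + 1) (coreIn (M₁ (D := D) (a := a)) (A ⊓ B)) (coreIn N₂ (A ⊓ B)) := by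
  obtain ⟨hA, hB, hlA, hlB⟩ := h
  refine ⟨fun y hy => ?_, fun y hy => ?_, fun y hy => ?_, fun y hy => ?_⟩
  · refine up C G i (K := (coreIn (M₁ (D := D) (a := a)) (A ⊓ B)).map (D.group (ZMod 2)).subtype) ?_ ?_ _
      (Subgroup.mem_map_of_mem _ hy)
    · rintro p hp g ⟨z, hz, rfl⟩
      refine ⟨_, coreIn_conj (m := ⟨p, S.parabolic_le_group _ hp⟩) (mem_M₁.2 hp) hz, ?_⟩
      simp
    · rintro g ⟨z, hz, rfl⟩
      exact ⟨hA z (coreIn_le_right hz).1, hB z (coreIn_le_right hz).2⟩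
  · refine up C G i (K := (coreIn N₂ (A ⊓ B)).map
      ((MulAut.conj (ne' S a)).toMonoidHom.comp (D.group (ZMod 2)).subtype)) ?_ ?_ _ ⟨y, hy, ?_⟩
    · rintro p hp g ⟨z, hz, rfl⟩
      have hpG : ne' S a * p * ne' S a ∈ D.group (ZMod 2) :=
        mul_mem (mul_mem hne (S.parabolic_le_group _ hp)) hne
      refine ⟨_, coreIn_conj (m := ⟨ne' S a * p * ne' S a, hpG⟩) ((hN₂ _).2 (by rw [cancel C G]; exact hp))
        hz, ?_⟩
      simp only [MonoidHom.coe_comp, Function.comp_apply, MulEquiv.coe_toMonoidHom, MulAut.conj_apply,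
        Subgroup.coe_subtype, Subgroup.coe_mul, Subgroup.coe_inv, _root_.mul_inv_rev, ne_inv C]
      calc ne' S a * (ne' S a * p * ne' S a * z * (ne' S a * (p⁻¹ * ne' S a))) * ne' S a
          = (ne' S a * ne' S a) * p * ne' S a * z * ne' S a * p⁻¹ * (ne' S a * ne' S a) := by group
        _ = p * (ne' S a * z * ne' S a) * p⁻¹ := by rw [ne_sq C]; group
    · rintro g ⟨z, hz, rfl⟩
      simp only [MonoidHom.coe_comp, Function.comp_apply, MulEquiv.coe_toMonoidHom, MulAut.conj_apply,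
        Subgroup.coe_subtype, ne_inv C, cancel C G]
      exact ⟨hB z (coreIn_le_right hz).2, hA z (coreIn_le_right hz).1⟩
    · simp [ne_inv C]
  · refine le_coreIn (N := (lq S a (i + 1 + 1)).subgroupOf (D.group (ZMod 2)))
      (fun z hz => mem_M₁.2 (lq_le_par C _ hz)) (fun z hz => Subgroup.mem_inf.2
        ⟨hlA z (lq_mono C (Nat.le_succ _) hz), hlB z (conj_drop C G (by omega) hz)⟩) (fun m hm z hz => ?_) hy
    · rw [Subgroup.mem_subgroupOf] at hz ⊢
      simp only [Subgroup.coe_mul, Subgroup.coe_inv]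
      exact conj_lq C (by omega) G (mem_M₁.1 hm) _ hz
  · have key : ∀ z : D.group (ZMod 2), ne' S a * z * ne' S a ∈ lq S a (i + 1 + 1) → z ∈ N₂ ∧ z ∈ A ⊓ B := by
      intro z hz
      refine ⟨(hN₂ z).2 (lq_le_par C _ hz), hlA z ?_, hlB z (lq_mono C (Nat.le_succ _) hz)⟩
      have := conj_drop C G (show 1 ≤ i + 1 by omega) hz
      rwa [cancel C G] at this
    refine le_coreIn (N := (lq S a (i + 1 + 1)).comap
      ((MulAut.conj (ne' S a)).toMonoidHom.comp (D.group (ZMod 2)).subtype)) ?_ ?_ ?_ ?_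
    · exact fun z hz => (key z (by simpa [ne_inv C] using hz)).1
    · exact fun z hz => (key z (by simpa [ne_inv C] using hz)).2
    · intro m hm z hz
      simp only [Subgroup.mem_comap, MonoidHom.coe_comp, Function.comp_apply, MulEquiv.coe_toMonoidHom,
        MulAut.conj_apply, Subgroup.coe_subtype, Subgroup.coe_mul, Subgroup.coe_inv, ne_inv C] at hz ⊢
      have := conj_lq C (show 1 ≤ i + 1 + 1 by omega) G ((hN₂ m).1 hm) _ hz
      simp only [_root_.mul_inv_rev, ne_inv C] at this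
      rwa [show ne' S a * (m : GL D.Idx (ZMod 2)) * ne' S a * (ne' S a * z * ne' S a) *
          (ne' S a * ((m : GL D.Idx (ZMod 2))⁻¹ * ne' S a)) =
          ne' S a * m * (ne' S a * ne' S a) * z * (ne' S a * ne' S a) * (m : GL D.Idx (ZMod 2))⁻¹ * ne' S a
          by group, ne_sq C, mul_one, mul_one,
        show ne' S a * (m : GL D.Idx (ZMod 2)) * z * (m : GL D.Idx (ZMod 2))⁻¹ * ne' S a =
          ne' S a * ((m : GL D.Idx (ZMod 2)) * z * (m : GL D.Idx (ZMod 2))⁻¹) * ne' S a by group] at this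
    · simpa [ne_inv C] using hy

/-- Bounds for both series. -/
theorem series_bounds (hne : ne' S a ∈ D.group (ZMod 2))
    (hN₂ : ∀ y : D.group (ZMod 2), y ∈ N₂ ↔ ne' S a * (y : GL D.Idx (ZMod 2)) * ne' S a ∈ par a) :
    ∀ i : ℕ, Bds (S := S) (a := a) i (series (M₁ (D := D) (a := a)) N₂ i).1 (series (M₁ (D := D) (a := a)) N₂ i).2 := by
  intro i
  induction i with
  | zero =>
    simp only [series]
    exact ⟨fun y hy => ⟨mem_M₁.1 hy, fun h => absurd rfl h⟩, fun y hy => ⟨(hN₂ y).1 hy, fun h => absurd rfl h⟩,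
      fun y hy => mem_M₁.2 (lq_le_par C _ hy), fun y hy => (hN₂ y).2 (lq_le_par C _ hy)⟩
  | succ i ih =>
    simp only [series]
    exact bds_succ C G N₂ hne hN₂ ih

/-- The example. -/
theorem exists_six (hperf : perfAll D = true) (hconn : connOK D = true) :
    ∃ (G : Type) (_ : Group G) (_ : Finite G) (M₁ M₂ : Subgroup G) (g : G) (A B : ℕ → Subgroup G),
      IsCoatom M₁ ∧ M₂ = M₁.map (MulAut.conj g).toMonoidHom ∧ M₁ ≠ M₂ ∧ M₁.normalCore = ⊥ ∧ A 0 = M₁ ∧ B 0 = M₂ ∧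
      (∀ i, A (i + 1) = ((A i ⊓ B i).subgroupOf M₁).normalCore.map M₁.subtype) ∧
      (∀ i, B (i + 1) = ((A i ⊓ B i).subgroupOf M₂).normalCore.map M₂.subtype) ∧ A 6 = ⊥ ∧ A 5 ≠ ⊥ := by
  haveI := Sys.finite_GL (D := D) (F := ZMod 2)
  let n : D.group (ZMod 2) := S.nG (ZMod 2) a
  have hn : (n : GL D.Idx (ZMod 2)) = ne' S a := S.coe_nG _
  let N₁ := M₁ (D := D) (a := a)
  let N₂ := N₁.map (MulAut.conj n).toMonoidHom
  have hN₂ : ∀ y : D.group (ZMod 2), y ∈ N₂ ↔ ne' S a * (y : GL D.Idx (ZMod 2)) * ne' S a ∈ par a := by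
    intro y
    rw [Subgroup.mem_map_equiv, mem_M₁, MulAut.conj_symm_apply, Subgroup.coe_mul, Subgroup.coe_mul,
      Subgroup.coe_inv, hn, ne_inv C]
  have hb := series_bounds C G N₂ (hn ▸ n.2) hN₂
  obtain ⟨s, hs, hs6⟩ := C.six
  let w : D.group (ZMod 2) := ⟨S.xU s 1, S.xU_mem_group _ _⟩
  have hw : w ≠ 1 := fun h => by
    have h1 : co s (S.xU s (1 : ZMod 2)) = 1 := by
      rw [co_xU C hs (by omega) hs, if_pos rfl]
    rw [show S.xU s (1 : ZMod 2) = 1 from (OneMemClass.coe_eq_one.2 h : (w : GL D.Idx (ZMod 2)) = 1),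
      co_one C (k := 6) (by norm_num) hs6] at h1
    exact zero_ne_one h1
  have h5 : w ∈ (series N₁ N₂ 5).1 := (hb 5).le_a w (xU_mem_lq C hs (by norm_num) (by omega) 1)
  have h6 : (series N₁ N₂ 6).1 = ⊥ := by
    rw [Subgroup.eq_bot_iff_forall]
    intro y hy
    have := ((hb 6).a_le y hy).2 (by norm_num)
    rw [lq_seven C le_rfl, Subgroup.mem_bot] at this
    exact OneMemClass.coe_eq_one.1 this
  haveI := (S.simple_noncomm (F := ZMod 2) (S.perfect_all hperf) hconn
    (Nat.lt_of_le_of_lt (Nat.zero_le _) C.lt)).1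
  refine ⟨D.group (ZMod 2), inferInstance, inferInstance, N₁, N₂, n, fun i => (series N₁ N₂ i).1,
    fun i => (series N₁ N₂ i).2, isCoatom_par C, rfl, fun heq => ?_, ?_, rfl, rfl, fun i => rfl,
    fun i => rfl, h6, fun h => hw (Subgroup.mem_bot.1 (h ▸ h5))⟩
  · have hconst : ∀ i, series N₁ N₂ i = (N₁, N₂) := by
      intro i
      induction i with
      | zero => rfl
      | succ i ih =>
        show (coreIn N₁ _, coreIn N₂ _) = _
        rw [ih]
        show (coreIn N₁ (N₁ ⊓ N₂), coreIn N₂ (N₁ ⊓ N₂)) = _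
        rw [← heq, inf_idem]
        have : coreIn N₁ N₁ = N₁ := le_antisymm coreIn_le_right
          (le_coreIn le_rfl le_rfl fun m hm y hy => mul_mem (mul_mem hm hy) (inv_mem hm))
        rw [this]
    rw [hconst] at h6 h5
    exact hw (Subgroup.mem_bot.1 (h6 ▸ h5))
  · rcases IsSimpleGroup.eq_bot_or_eq_top_of_normal N₁.normalCore (Subgroup.normalCore_normal _) with h | h
    · exact h
    · exact absurd (top_le_iff.1 (h ▸ Subgroup.normalCore_le N₁)) (isCoatom_par C).1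

end CfsgLib.SixStep
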