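import Cfsg.Agent.SixStep.Core
import Cfsg.Agent.SixStep.Maximal

/-!
# A subgroup normalised by `P` inside `L_k ∩ n L_k n` lies in `L_{k+1}`
-/

set_option autoImplicit false
set_option linter.unusedSectionVars false
set_option linter.style.haveILetI false

namespace CfsgLib.SixStep

open Cfsg.Lie Matrix CfsgLib.Chev

variable {D : ChevalleyDatum} {S : Sys.{0} D} {a : ℕ} (C : Cert S a)
include C

theorem ne_sq : ne' S a * ne' S a = 1 := by
  have h := S.nU_sq_mem_diag (F := ZMod 2) C.lt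
  rw [diag_bot C, Subgroup.mem_bot] at h
  exact h

theorem ne_inv : (ne' S a)⁻¹ = ne' S a := inv_eq_of_mul_eq_one_right (ne_sq C)

theorem ne_conj_xU {s : ℕ} (hs : s < D.nroots) :
    ne' S a * S.xU s 1 * ne' S a = S.xU (S.pi a s) 1 := by
  have h := S.nU_conj_xU (F := ZMod 2) C.lt hs 1
  rw [mul_one] at h
  rw [show ne' S a * S.xU s 1 * ne' S a = ne' S a * S.xU s 1 * (ne' S a)⁻¹ by rw [ne_inv C]]
  rcases S.eta_unit a C.lt s hs with e | e <;>
    · rw [e] at h
      exact h.trans (by congr 1)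

theorem vec_pi_self : S.vec (S.pi a (D.simple a)) a = -1 := by
  rw [S.pi_simple a C.lt, S.vec_neg _ (S.simple_lt C.lt) a C.lt, S.vec_simple a C.lt a C.lt, if_pos rfl]

theorem vec_simple_self : S.vec (D.simple a) a = 1 := by
  rw [S.vec_simple a C.lt a C.lt, if_pos rfl]

/-- A root that `n` lowers below level `k` has zero coordinate in `nXn`. -/
theorem co_seed {k r : ℕ} (hr : r < D.nroots) (hvr : S.vec (S.pi a r) a < (k : ℤ))
    {g h : GL D.Idx (ZMod 2)} (hh : Rz S a k (h : Matrix D.Idx D.Idx (ZMod 2)))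
    (hgh : g * ne' S a = ne' S a * h) : co r g = 0 := by
  set x : D.Idx := Sum.inr ⟨r, hr⟩ with hx
  set A := (g : Matrix D.Idx D.Idx (ZMod 2))
  have hN : ∀ j, j < D.rank → (ne' S a : Matrix D.Idx D.Idx (ZMod 2)) *ᵥ hv D (ZMod 2) j =
      hv D (ZMod 2) j - (D.cartan j (D.simple a) : ZMod 2) • hv D (ZMod 2) a := fun j hj => by
    rw [ne', S.coe_nU]; exact S.n_hv a C.lt j hj
  have hE : ∀ s, s < D.nroots → (ne' S a : Matrix D.Idx D.Idx (ZMod 2)) *ᵥ ev D (ZMod 2) s =
      (S.eta a s : ZMod 2) • ev D (ZMod 2) (S.pi a s) := fun s hs => by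
    rw [ne', S.coe_nU]; exact S.n_ev a C.lt s hs
  have key : ∀ j : Fin D.rank,
      A x (Sum.inl j) = (D.cartan j (D.simple a) : ZMod 2) * A x (Sum.inl ⟨a, C.lt⟩) := by
    intro j
    have h1 := congrArg (fun M : GL D.Idx (ZMod 2) =>
      ((M : Matrix D.Idx D.Idx (ZMod 2)) *ᵥ hv D (ZMod 2) (j : ℕ)) x) hgh
    simp only [Units.val_mul, ← mulVec_mulVec] at h1
    rw [hN j j.2, mulVec_sub, mulVec_smul, Pi.sub_apply, Pi.smul_apply, hv_eq j.2, hv_eq C.lt,
      mulVec_single_col, mulVec_single_col, smul_eq_mul] at h1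
    have h2 : ((ne' S a : Matrix D.Idx D.Idx (ZMod 2)) *ᵥ
        ((h : Matrix D.Idx D.Idx (ZMod 2)) *ᵥ Pi.single (Sum.inl ⟨(j : ℕ), j.2⟩) 1)) x = 0 := by
      rw [Matrix.mulVec, dotProduct]
      refine Finset.sum_eq_zero fun y _ => ?_
      rw [mulVec_single_col]
      by_contra h0
      rcases y with i | s
      · apply left_ne_zero_of_mul h0
        rw [← mulVec_single_col (ne' S a : Matrix D.Idx D.Idx (ZMod 2)), ← hv_eq i.2, hN i i.2]
        simp [hx, hv_inr]
      · by_cases hs : S.pi a s = r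
        · have h3 := hh _ _ (by simp) (right_ne_zero_of_mul h0)
          rw [wgt_diff C s ⟨j, j.2⟩] at h3
          have : (s : ℕ) = S.pi a r := by rw [← hs, S.pi_pi a C.lt s s.2]
          rw [this] at h3
          omega
        · apply left_ne_zero_of_mul h0
          rw [← mulVec_single_col (ne' S a : Matrix D.Idx D.Idx (ZMod 2)), ← ev_eq s.2, hE s s.2]
          simp [hx, ev_inr, Ne.symm hs]
    rw [h2] at h1
    exact sub_eq_zero.1 h1
  have ha := key ⟨a, C.lt⟩
  rw [show D.cartan a (D.simple a) = 2 from S.cartan_self a C.lt,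
    show ((2 : ℤ) : ZMod 2) = 0 from rfl, zero_mul] at ha
  unfold co
  split_ifs with hc
  · exact (key _).trans (by rw [ha, mul_zero])
  · rfl

variable (G : Geo D) {K : Subgroup (GL D.Idx (ZMod 2))}
  (hnorm : ∀ p ∈ par a, ∀ g ∈ K, p * g * p⁻¹ ∈ K)
include G hnorm

/-- The step at a positive level. -/
theorem step {k : ℕ} (hk : 1 ≤ k) (hK : ∀ g ∈ K, g ∈ lq S a k ∧
    Rz S a (if k = 1 then 0 else k) ((ne' S a * g * ne' S a : GL D.Idx (ZMod 2)) : Matrix D.Idx D.Idx (ZMod 2))) :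
    ∀ g ∈ K, g ∈ lq S a (k + 1) := by
  have main : ∀ r, Reach S a k r → r < D.nroots → S.vec r a = (k : ℤ) → ∀ g ∈ K, co r g = 0 := by
    intro r hR
    induction hR with
    | @seed r hs =>
      intro hr hv g hg
      refine co_seed C hr ?_ (hK g hg).2
        (by rw [← mul_assoc, ← mul_assoc, ne_sq C, one_mul])
      split_ifs at hs ⊢ with h1
      · rw [hs, vec_pi_self C]; norm_num
      · exact hs
    | @step r b r' hb hb0 hr' hk' hrec hit ih =>
      intro hr hv g hg
      have h1 := ih hr' hk' _ (hnorm _ (xU_mem_par C hb hb0.ge 1) g hg)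
      rw [co_conj C hk G hr hv hb hb0 hr' hk' hit (hK g hg).1, ih hr' hk' g hg, zero_add] at h1
      exact h1
  exact fun g hg => mem_succ_of_co C hk G (hK g hg).1
    fun r hr hv => main r (C.reach k hk r hr hv) hr hv g hg

variable (hK : ∀ g ∈ K, g ∈ par a ∧ ne' S a * g * ne' S a ∈ par a)
include hK

theorem co_invariant {g : GL D.Idx (ZMod 2)} (hg : g ∈ K) {r : ℕ} (hr : r < D.nroots)
    (hv : S.vec r a = 1) {h : GL D.Idx (ZMod 2)} (hh : h ∈ lq S a 1) :
    co r (g * h * g⁻¹) = co r h := by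
  have kerA : ∀ y ∈ lq S a 1, (co (D.simple a) y = 0 ↔ ne' S a * y * ne' S a ∈ par a) := by
    intro y hy
    refine ⟨fun h0 => ?_, fun h0 => ?_⟩
    · have h1 := split C le_rfl G (S.simple_lt C.lt) (by simpa using vec_simple_self C)
        (p := fun s => (1 : ℤ) ≤ S.vec s a ∧ s ≠ D.simple a) (fun s h => by simpa using h)
        (fun s h => by
          refine ⟨by push_cast at h; omega, ?_⟩
          rintro rfl
          rw [vec_simple_self C] at h
          norm_num at h)
        (S.genBy_mono (fun s _ _ h => by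
          by_cases e : s = D.simple a
          · exact Or.inr e
          · exact Or.inl ⟨by simpa using h, e⟩) hy) h0
      have : S.genBy (ZMod 2) (fun s => (1 : ℤ) ≤ S.vec s a ∧ s ≠ D.simple a) ≤
          (par a).comap (MulAut.conj (ne' S a)).toMonoidHom := by
        refine S.genBy_le fun s _ hs h t => ?_
        show ne' S a * S.xU s t * (ne' S a)⁻¹ ∈ par a
        rcases two_cases t with rfl | rfl
        · simp
        rw [ne_inv C, ne_conj_xU C hs]
        exact xU_mem_par C (S.pi_lt a C.lt s hs) (by have := C.drop s hs h.1 h.2; omega) 1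
      have h2 : ne' S a * y * (ne' S a)⁻¹ ∈ par a := this h1
      rwa [ne_inv C] at h2
    · exact co_seed C (S.simple_lt C.lt) (by rw [vec_pi_self C]; norm_num) (k := 0) (rz_par C G h0)
        (by rw [← mul_assoc, ← mul_assoc, ne_sq C, one_mul])
  suffices main : ∀ r, Reach S a 1 r → r < D.nroots → S.vec r a = ((1 : ℕ) : ℤ) → ∀ g ∈ K,
      ∀ h ∈ lq S a 1, co r (g * h * g⁻¹) = co r h from
    main r (C.reach 1 le_rfl r hr (by simpa using hv)) hr (by simpa using hv) g hg h hh
  clear hg hh hr hv h g r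
  intro r hR
  induction hR with
  | @seed r hs =>
    intro hr hv g hg h hh
    rw [if_pos rfl] at hs
    subst hs
    have e : co (D.simple a) (g * h * g⁻¹) = 0 ↔ co (D.simple a) h = 0 := by
      rw [kerA _ (conj_lq C le_rfl G (hK g hg).1 h hh), kerA h hh]
      set n := ne' S a
      have hgn := (hK g hg).2
      have hnn : n * n = 1 := ne_sq C
      have e1 : n * (g * h * g⁻¹) * n = (n * g * n) * (n * h * n) * (n * g * n)⁻¹ := by
        rw [_root_.mul_inv_rev, _root_.mul_inv_rev, show n⁻¹ = n from ne_inv C]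
        calc n * (g * h * g⁻¹) * n = n * g * (n * n) * h * (n * n) * g⁻¹ * n := by
              rw [hnn]; group
          _ = _ := by group
      rw [e1]
      exact ⟨fun h' => by
        have := mul_mem (mul_mem (inv_mem hgn) h') hgn
        simpa [mul_assoc] using this, fun h' => mul_mem (mul_mem hgn h') (inv_mem hgn)⟩
    rcases two_cases (co (D.simple a) h) with h1 | h1 <;>
      rcases two_cases (co (D.simple a) (g * h * g⁻¹)) with h2 | h2 <;> simp [h1, h2] at e ⊢
  | @step r b r' hb hb0 hr' hk' hrec hit ih =>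
    intro hr hv g hg h hh
    have hx := xU_mem_par C hb hb0.ge (1 : ZMod 2)
    have hgh := conj_lq C le_rfl G (hK g hg).1 h hh
    have h1 := ih hr' hk' _ (hnorm _ hx g hg) _ (conj_lq C le_rfl G hx h hh)
    rw [show S.xU b 1 * g * (S.xU b 1)⁻¹ * (S.xU b 1 * h * (S.xU b 1)⁻¹) *
        (S.xU b 1 * g * (S.xU b 1)⁻¹)⁻¹ = S.xU b 1 * (g * h * g⁻¹) * (S.xU b 1)⁻¹ by group,
      co_conj C le_rfl G hr hv hb hb0 hr' hk' hit hgh, co_conj C le_rfl G hr hv hb hb0 hr' hk' hit hh,
      ih hr' hk' g hg h hh] at h1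
    exact add_left_cancel h1

/-- `K` acts trivially on every factor of the series of the radical. -/
theorem factor_trivial {g : GL D.Idx (ZMod 2)} (hg : g ∈ K) : ∀ k : ℕ, 1 ≤ k →
    ∀ x ∈ lq S a k, g * x * g⁻¹ * x⁻¹ ∈ lq S a (k + 1) := by
  intro k hk
  induction k, hk using Nat.le_induction with
  | base =>
    intro x hx
    have h1 := conj_lq C le_rfl G (hK g hg).1 x hx
    refine mem_succ_of_co C le_rfl G (mul_mem h1 (inv_mem hx)) fun r hr hv => ?_
    have h2 := co_mul C le_rfl hv (mul_mem h1 (inv_mem hx)) hx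
    rw [inv_mul_cancel_right, co_invariant C G hnorm hK hg hr (by simpa using hv) hx] at h2
    exact add_eq_right.1 h2.symm
  | succ k hk ih =>
    intro x hx
    induction hx using lq_induction C with
    | h1 => simp
    | hmul y z hy hz ihy ihz =>
      have := mul_mem ihy (conj_lq C (show 1 ≤ k + 1 + 1 by omega) G (lq_le_par C _ hy) _ ihz)
      rwa [show g * y * g⁻¹ * y⁻¹ * (y * (g * z * g⁻¹ * z⁻¹) * y⁻¹) = g * (y * z) * g⁻¹ * (y * z)⁻¹ by
        group] at this
    | hgen r hr hrk hrmem =>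
      push_cast at hrk
      by_cases hrk' : ((k + 1 + 1 : ℕ) : ℤ) ≤ S.vec r a
      · have hm := xU_mem_lq C hr (show 1 ≤ k + 1 + 1 by omega) hrk' 1
        exact mul_mem (conj_lq C (by omega) G (hK g hg).1 _ hm) (inv_mem hm)
      push_cast at hrk'
      obtain ⟨s, hs, s', hs', hv, hv', hne, hcomm⟩ := C.gen r hr (by omega)
      obtain ⟨M, p, q, hterms, hM⟩ :=
        hcomm s (Finset.mem_insert_self _ _) (pos_of_lev C hs (by omega))
      have hsq : S.xU s 1 ∈ lq S a 1 := xU_mem_lq C hs le_rfl (by simp [hv]) 1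
      have hs'q : S.xU s' 1 ∈ lq S a k := xU_mem_lq C hs' hk (by omega) 1
      have e := conj_gen C hs (by omega) hs' hne (by omega)
      rw [show D.commWord (ZMod 2) s s' (-1) 1 = [(r, (1 : ZMod 2))] by
        rw [ChevalleyDatum.commWord, hterms]; simp [hM], Sys.wU_cons,
        show S.wU ([] : List (ℕ × ZMod 2)) = 1 from rfl, mul_one] at e
      set u := S.xU s (1 : ZMod 2)
      set u' := S.xU s' (1 : ZMod 2)
      have er : S.xU r 1 = u'⁻¹ * u * u' * u⁻¹ := by
        rw [← mul_right_inj u', ← e, show u'⁻¹ = u' from inv_self C s', show u⁻¹ = u from inv_self C s]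
        rw [← mul_assoc u', ← mul_assoc u', ← mul_assoc u', show u' * u' = 1 from inv_eq_iff_mul_eq_one.1 (inv_self C s'), one_mul]
      have hq := ih _ hs'q
      have h1 : g * u * g⁻¹ * u⁻¹ ∈ lq S a 2 := by
        have := (show ∀ x ∈ lq S a 1, g * x * g⁻¹ * x⁻¹ ∈ lq S a 2 from fun x hx' => ?_) u hsq
        · exact this
        · have h1 := conj_lq C le_rfl G (hK g hg).1 x hx'
          refine mem_succ_of_co C le_rfl G (mul_mem h1 (inv_mem hx')) fun r hr hv => ?_
          have h2 := co_mul C le_rfl hv (mul_mem h1 (inv_mem hx')) hx'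
          rw [inv_mul_cancel_right, co_invariant C G hnorm hK hg hr (by simpa using hv) hx'] at h2
          exact add_eq_right.1 h2.symm
      -- calculate modulo the next level
      haveI hN : ((lq S a (k + 1 + 1)).subgroupOf (par a)).Normal :=
        ⟨fun y hy p => conj_lq C (by omega) G p.2 _ hy⟩
      let π := QuotientGroup.mk' ((lq S a (k + 1 + 1)).subgroupOf (par a))
      have hcom : ∀ (l m : ℕ), 1 ≤ l → 1 ≤ m → k + 2 ≤ m + l → ∀ y z : par (D := D) a,
          (y : GL D.Idx (ZMod 2)) ∈ lq S a l → (z : GL D.Idx (ZMod 2)) ∈ lq S a m →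
          Commute (π y) (π z) := by
        intro l m hl hm hlm y z hy hz
        have h2 : π (y * z * y⁻¹ * z⁻¹) = 1 :=
          (QuotientGroup.eq_one_iff _).2 (lq_mono C (by omega) (comm_lq C hm hl G hy hz))
        rw [map_mul, map_mul, map_mul, map_inv, map_inv, mul_inv_eq_one, mul_inv_eq_iff_eq_mul] at h2
        exact h2
      set gP : par (D := D) a := ⟨g, (hK g hg).1⟩
      set uP : par (D := D) a := ⟨u, lq_le_par C _ hsq⟩
      set uP' : par (D := D) a := ⟨u', lq_le_par C _ hs'q⟩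
      have hu : ∃ qu : par (D := D) a, (qu : GL D.Idx (ZMod 2)) ∈ lq S a 2 ∧ gP * uP * gP⁻¹ = qu * uP :=
        ⟨gP * uP * gP⁻¹ * uP⁻¹, h1, (inv_mul_cancel_right _ _).symm⟩
      have hu' : ∃ qu : par (D := D) a, (qu : GL D.Idx (ZMod 2)) ∈ lq S a (k + 1) ∧
          gP * uP' * gP⁻¹ = qu * uP' :=
        ⟨gP * uP' * gP⁻¹ * uP'⁻¹, hq, (inv_mul_cancel_right _ _).symm⟩
      obtain ⟨qu, hqu, eu⟩ := hu
      obtain ⟨qu', hqu', eu'⟩ := hu'
      set c := uP'⁻¹ * uP * uP' * uP⁻¹
      have hgoal : π (gP * c * gP⁻¹ * c⁻¹) = 1 := by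
        have e2 : gP * c * gP⁻¹ = (gP * uP' * gP⁻¹)⁻¹ * (gP * uP * gP⁻¹) * (gP * uP' * gP⁻¹) *
            (gP * uP * gP⁻¹)⁻¹ := by simp only [c]; group
        rw [e2, eu, eu', map_mul, mul_eq_one_iff_eq_inv, map_inv, inv_inv]
        simp only [c, map_mul, map_inv, _root_.mul_inv_rev]
        set A := π qu'; set B := π qu; set X := π uP; set Y := π uP'
        have hAX : Commute A X := hcom (k + 1) 1 (by omega) le_rfl (by omega) qu' uP hqu' hsq
        have hAB : Commute A B := hcom (k + 1) 2 (by omega) (by omega) (by omega) qu' qu hqu' hqu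
        have hBY : Commute B Y := hcom 2 k (by omega) hk (by omega) qu uP' hqu hs'q
        have hBc : Commute B (Y⁻¹ * X * Y * X⁻¹) := by
          rw [← map_inv, ← map_mul, ← map_mul, ← map_inv, ← map_mul]
          refine hcom 2 (k + 1) (by omega) (by omega) (by omega) qu _ hqu ?_
          show u'⁻¹ * u * u' * u⁻¹ ∈ lq S a (k + 1)
          rw [← er]
          exact hrmem
        calc Y⁻¹ * A⁻¹ * (B * X) * (A * Y) * (X⁻¹ * B⁻¹)
            = Y⁻¹ * A⁻¹ * ((B * X) * A) * Y * X⁻¹ * B⁻¹ := by group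
          _ = Y⁻¹ * A⁻¹ * (A * (B * X)) * Y * X⁻¹ * B⁻¹ := by rw [(hAB.mul_right hAX).eq]
          _ = Y⁻¹ * B * X * Y * X⁻¹ * B⁻¹ := by group
          _ = B * (Y⁻¹ * X * Y * X⁻¹) * B⁻¹ := by rw [← hBY.inv_right.eq]; group
          _ = Y⁻¹ * X * Y * X⁻¹ := by rw [hBc.eq, mul_inv_cancel_right]
      rw [er]
      exact (QuotientGroup.eq_one_iff (gP * c * gP⁻¹ * c⁻¹)).1 hgoal

/-- The first step. -/
theorem step_zero : ∀ g ∈ K, g ∈ lq S a 1 := by
  haveI := Sys.finite_GL (D := D) (F := ZMod 2)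
  haveI : Fact (Nat.Prime 2) := ⟨Nat.prime_two⟩
  have hU : IsPGroup 2 (D.posUnipotent (ZMod 2)) :=
    IsPGroup.of_card (n := D.nroots / 2) (by rw [S.card_pos, Nat.card_zmod])
  have hqU : ∀ k, lq S a k ≤ D.posUnipotent (ZMod 2) := fun k => S.genBy_le_pos _
  have hodd : ∀ g ∈ K, Odd (orderOf g) → g = 1 := by
    intro g hg ho
    have hcent : ∀ d k : ℕ, 1 ≤ k → 7 - k ≤ d → ∀ x ∈ lq S a k, g * x = x * g := by
      intro d
      induction d with
      | zero =>
        intro k hk hd x hx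
        rw [lq_seven C (by omega), Subgroup.mem_bot] at hx
        subst hx; simp
      | succ d ih =>
        intro k hk hd x hx
        have hz := factor_trivial C G hnorm hK hg k hk x hx
        obtain ⟨m, hm⟩ := IsPGroup.iff_orderOf.1 hU ⟨_, hqU _ hz⟩
        rw [Subgroup.orderOf_mk] at hm
        exact CfsgLib.PCore.mem_centralizer_of_coprime_pow (z := g * x * g⁻¹ * x⁻¹)
          (inv_mul_cancel_right _ _).symm (ih (k + 1) (by omega) (by omega) _ hz)
          (pow_orderOf_eq_one g) (hm ▸ pow_orderOf_eq_one _)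
          (Nat.Coprime.pow_right m (Nat.coprime_two_right.2 ho))
    have hgU : g ∈ D.posUnipotent (ZMod 2) := by
      refine S.centralizer_radical_le G (J := jset a) ⟨a, C.lt, fun h => h rfl⟩ (hK g hg).1 ?_
      refine Subgroup.mem_centralizer_iff.2 fun x hx => ?_
      rw [S.unipotentRadical_eq G] at hx
      refine (hcent 7 1 le_rfl (by omega) x (S.genBy_mono (fun r h1 h2 h3 => ?_) hx)).symm
      have h4 := S.vec_nonneg r h2 h1 a C.lt
      have h5 : S.vec r a ≠ 0 := fun e => h3 ((inJ_iff C).2 ⟨h2, e⟩)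
      show ((1 : ℕ) : ℤ) ≤ S.vec r a
      push_cast; omega
    obtain ⟨m, hm⟩ := IsPGroup.iff_orderOf.1 hU ⟨_, hgU⟩
    rw [Subgroup.orderOf_mk] at hm
    rw [← orderOf_eq_one_iff]
    exact Nat.eq_one_of_dvd_coprimes (Nat.Coprime.pow_right m (Nat.coprime_two_right.2 ho)) dvd_rfl hm.dvd
  have hK2 : IsPGroup 2 K := by
    rw [IsPGroup.iff_orderOf]
    intro g
    obtain ⟨m, u, hu, e⟩ := Nat.exists_eq_two_pow_mul_odd (orderOf_pos g).ne'
    refine ⟨m, ?_⟩
    have h1 : orderOf ((g : GL D.Idx (ZMod 2)) ^ 2 ^ m) = u := by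
      rw [orderOf_pow' _ (by positivity), Subgroup.orderOf_coe, e, Nat.gcd_mul_right_left,
        Nat.mul_div_cancel_left _ (by positivity)]
    have h2 := hodd _ (pow_mem g.2 _) (h1.symm ▸ hu)
    rw [h2, orderOf_one] at h1
    rw [e, ← h1, mul_one]
  set R := K ⊔ lq S a 1 with hR
  have hKN : K ≤ Subgroup.normalizer (lq S a 1 : Set (GL D.Idx (ZMod 2))) := by
    intro p hp
    refine Subgroup.mem_normalizer_iff.2 fun y => ⟨fun hy => conj_lq C le_rfl G (hK p hp).1 y hy, fun hy => ?_⟩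
    have := conj_lq C le_rfl G (inv_mem (hK p hp).1) _ hy
    rwa [show p⁻¹ * (p * y * p⁻¹) * p⁻¹⁻¹ = y by group] at this
  have hR2 : IsPGroup 2 R := hK2.to_sup_of_normal_right' (hU.to_le (hqU 1)) hKN
  have hra : S.xU (D.simple a) (1 : ZMod 2) ∈ R :=
    Subgroup.mem_sup_right (xU_mem_lq C (S.simple_lt C.lt) le_rfl (by simp [vec_simple_self C]) 1)
  have hRne : R ≠ ⊥ := fun h => by
    rw [h, Subgroup.mem_bot] at hra
    have h2 : co (D.simple a) (S.xU (D.simple a) (1 : ZMod 2)) = 1 := by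
      rw [co_xU C (S.simple_lt C.lt) (by rw [vec_simple_self C]) (S.simple_lt C.lt), if_pos rfl]
    rw [hra, co_one C le_rfl (by simp [vec_simple_self C])] at h2
    exact zero_ne_one h2
  have hRP : R ≤ par a := sup_le (fun g hg => (hK g hg).1) (lq_le_par C 1)
  have hPR : par (D := D) a ≤ Subgroup.normalizer (R : Set (GL D.Idx (ZMod 2))) := by
    have hc : ∀ p ∈ par (D := D) a, ∀ y ∈ R, p * y * p⁻¹ ∈ R := by
      intro p hp
      have : R ≤ R.comap (MulAut.conj p).toMonoidHom :=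
        sup_le (fun y hy => Subgroup.mem_sup_left (hnorm p hp y hy))
          (fun y hy => Subgroup.mem_sup_right (conj_lq C le_rfl G hp y hy))
      exact fun y hy => this hy
    intro p hp
    refine Subgroup.mem_normalizer_iff.2 fun y => ⟨fun hy => hc p hp y hy, fun hy => ?_⟩
    have := hc p⁻¹ (inv_mem hp) _ hy
    rwa [show p⁻¹ * (p * y * p⁻¹) * p⁻¹⁻¹ = y by group] at this
  haveI : CharP (ZMod 2) 2 := ZMod.charP 2
  obtain ⟨g, hg, J, hJ, hN, hle⟩ := S.borel_tits G (Nat.lt_of_le_of_lt (Nat.zero_le _) C.lt) 2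
    (hRP.trans (S.parabolic_le_group _)) hR2 hRne
  have key := conj_parabolic C G hg hJ ((le_inf hPR (S.parabolic_le_group _)).trans hN)
  intro x hx
  obtain ⟨z, hz, e⟩ := Subgroup.mem_map.1 (hle (Subgroup.mem_sup_left hx))
  have hz' : z ∈ lq S a 1 := by
    rw [S.unipotentRadical_eq G] at hz
    refine S.genBy_mono (fun r h1 h2 h3 => ?_) hz
    have h4 := S.vec_nonneg r h2 h1 a C.lt
    have h5 : S.vec r a ≠ 0 := fun e' => h3 ((S.inRootSub_iff G _ r).1 (key.2 r |>.2
      ((S.inRootSub_iff G _ r).2 ((inJ_iff C).2 ⟨h2, e'⟩))))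
    show ((1 : ℕ) : ℤ) ≤ S.vec r a
    push_cast; omega
  rw [← e]
  exact conj_lq C le_rfl G key.1 z hz'

end CfsgLib.SixStep
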